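import Cfsg.Agent.Spin.Word

/-!
# Schur's `Q`-functions are integral combinations of permutation characters
-/

namespace Cfsg.Agent.Spin

open Finset Function Cfsg.Agent.SymCh

open MvPolynomial in
/-- The permutation character of a Young subgroup on the classes with odd cycles. -/
noncomputable def P {l : ℕ} (μ : Fin l → ℕ) : Fm := fun ρ =>
  wO 1 ρ * toFn (ρ.map fun r => ∑ i, (X i : MvPolynomial (Fin l) ℂ) ^ r).prod μ

theorem P_zero {l : ℕ} (μ : Fin l → ℕ) : P μ 0 = if μ = 0 then 1 else 0 := by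
  simp only [P, wO_zero, Multiset.map_zero, Multiset.prod_zero, one_mul, toFn,
    MvPolynomial.coeff_one]
  congr 1
  rw [eq_iff_iff, Equiv.eq_symm_apply, eq_comm]
  rfl

theorem J_P {l : ℕ} (r : ℕ) (μ : Fin l → ℕ) :
    J r (P μ) = wo 1 r • ∑ j, if r ≤ μ j then P (update μ j (μ j - r)) else 0 := by
  funext ρ
  simp only [J_apply, P, wO_cons, Multiset.map_cons, Multiset.prod_cons, toFn_psum_mul, U_apply,
    Pi.smul_apply, Finset.sum_apply, smul_eq_mul, mul_assoc, mul_sum]
  refine sum_congr rfl fun j _ => ?_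
  split_ifs <;> simp [P]

theorem P_nil (μ : Fin 0 → ℕ) : P μ = vac := by
  funext ρ
  induction ρ using Multiset.induction_on with
  | empty => rw [P_zero, if_pos (Subsingleton.elim _ _)]; simp [vac]
  | cons r ρ _ => rw [← J_apply r (P _), J_P]; simp [vac]

theorem P_cons {l : ℕ} (m : ℕ) (μ : Fin l → ℕ) : P (Fin.cons m μ : Fin (l + 1) → ℕ) = q m (P μ) := by
  funext ρ
  induction ρ using Multiset.induction_on generalizing m μ with
  | empty =>
    rw [P_zero, q_apply, V_zero]
    by_cases hm : m = 0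
    · subst hm
      simp only [Nat.cast_zero, if_true, P_zero, funext_iff, Fin.forall_fin_succ]
      simp
    · rw [if_neg fun h => hm (congrFun h 0), if_neg (by omega)]; rfl
  | cons r ρ ih =>
    rw [← J_apply r (P _), ← J_apply r (q _ _), J_P, J_q, J_P, map_smul, map_sum, ← smul_add,
      Fin.sum_univ_succ, add_comm]
    simp only [Pi.smul_apply, Pi.add_apply, Finset.sum_apply, Fin.cons_zero, Fin.cons_succ,
      Fin.update_cons_zero, ← Fin.cons_update]
    congr 2
    · refine sum_congr rfl fun j _ => ?_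
      split_ifs
      · exact ih _ _
      · simp
    · split_ifs with h
      · rw [ih, Nat.cast_sub h]
      · rw [q_neg (by omega)]

/-- The lattice containing the `Q`-functions of length `l`. -/
def Lat (l : ℕ) : AddSubgroup Fm :=
  AddSubgroup.closure {F | ∃ μ : Fin l → ℕ, F = (2 : ℂ) ^ #{j | μ j = 0} • P μ}

theorem card_cons {l : ℕ} (m : ℕ) (μ : Fin l → ℕ) :
    #{j | (Fin.cons m μ : Fin (l + 1) → ℕ) j = 0} = #{j | μ j = 0} + if m = 0 then 1 else 0 := by
  simp only [card_filter, Fin.sum_univ_succ, Fin.cons_zero, Fin.cons_succ, add_comm]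

theorem q_mem {l : ℕ} (m : ℕ) {F : Fm} (hF : F ∈ Lat l) :
    (if m = 0 then 2 else 1 : ℂ) • q m F ∈ Lat (l + 1) := by
  induction hF using AddSubgroup.closure_induction with
  | mem F hF =>
    obtain ⟨μ, rfl⟩ := hF
    refine AddSubgroup.subset_closure ⟨Fin.cons m μ, ?_⟩
    rw [card_cons, P_cons, map_smul, smul_smul]
    split_ifs <;> simp [pow_succ']
  | zero => simp
  | add F G _ _ hF hG => rw [map_add, smul_add]; exact add_mem hF hG
  | neg F _ hF => rw [map_neg, smul_neg]; exact neg_mem hF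

theorem q_mem' {l : ℕ} {m : ℤ} {F : Fm} (hF : F ∈ Lat l) (c : ℤ) (h : m = 0 → 2 ∣ c) :
    (c : ℂ) • q m F ∈ Lat (l + 1) := by
  rcases lt_or_ge m 0 with hm | hm
  · simp [q_neg hm]
  lift m to ℕ using hm
  have h1 := q_mem m hF
  split_ifs at h1 with h2
  · obtain ⟨c, rfl⟩ := h (by omega)
    rw [mul_comm, Int.cast_mul, mul_smul, Int.cast_smul_eq_zsmul]
    exact zsmul_mem h1 c
  · rw [Int.cast_smul_eq_zsmul]
    exact zsmul_mem (by simpa using h1) c

theorem S_mem (l : ℕ) : ∀ (k : ℤ) {F : Fm}, F ∈ Lat l → S k F ∈ Lat l := by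
  have key : ∀ l : ℕ, ∀ k : ℤ, (∀ μ : Fin l → ℕ, S k ((2 : ℂ) ^ #{j | μ j = 0} • P μ) ∈ Lat l) →
      ∀ {F : Fm}, F ∈ Lat l → S k F ∈ Lat l := by
    intro l k h F hF
    induction hF using AddSubgroup.closure_induction with
    | mem F hF => obtain ⟨μ, rfl⟩ := hF; exact h μ
    | zero => simp
    | add F G _ _ hF hG => rw [map_add]; exact add_mem hF hG
    | neg F _ hF => rw [map_neg]; exact neg_mem hF
  induction l with
  | zero =>
    refine fun k => key 0 k fun μ => ?_
    rw [map_smul, P_nil, S_vac]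
    split_ifs
    · exact AddSubgroup.subset_closure ⟨μ, by rw [P_nil]⟩
    · simp
  | succ l ih =>
    refine fun k => key _ k fun ν => ?_
    rcases lt_or_ge k 0 with hk | hk
    · simp [S_neg hk]
    lift k to ℕ using hk
    obtain ⟨m, μ, rfl⟩ : ∃ m μ, ν = Fin.cons m μ := ⟨_, _, (Fin.cons_self_tail ν).symm⟩
    rw [card_cons, P_cons, pow_add, mul_comm, mul_smul, ← map_smul, map_smul, S_q, smul_sum]
    refine sum_mem fun x _ => ?_
    have h1 := ih x.2 (AddSubgroup.subset_closure ⟨μ, rfl⟩)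
    have h2 := q_mem' (m := m - x.1) h1 (2 ^ (if m = 0 then 1 else 0) *
      if x.1 = 0 then 1 else 2 * (-1) ^ x.1) fun h => by
      split_ifs with h3 h4 h4
      · simp
      · simp
      · omega
      · simp
    rw [smul_smul, avg_wO]
    simpa using h2

theorem Q_mem (l : List ℤ) (h : ∀ b ∈ l, 0 < b) : Q l ∈ Lat l.length := by
  induction l with
  | nil => exact AddSubgroup.subset_closure ⟨0, by simp [P_nil, Q_nil]⟩
  | cons a l ih =>
    have h1 := ih fun b hb => h b (List.mem_cons_of_mem _ hb)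
    have h2 := h a List.mem_cons_self
    rw [Q_cons, (hom_Q l).Φ_eq]
    refine sum_mem fun m _ => ?_
    by_cases hm : m = 0
    · rw [S_neg (by omega)]; simp
    · simpa [hm] using q_mem m (S_mem _ (m - a) h1)

end Cfsg.Agent.Spin
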