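import Cfsg.Agent.Spin.Word

/-!
# Bar weights and the degree formula for Schur's `Q`-functions
-/

namespace Cfsg.Agent.Spin

open Finset Function Cfsg.Agent.SymCh

/-- Contribution of a pair of parts to the weight. -/
def fw (q a b : ℤ) : ℤ := (if q ∣ a + b then 1 else 0) - if q ∣ a - b then 1 else 0

/-- The bar weight. -/
def W (q : ℤ) : List ℤ → ℤ
  | [] => 0
  | a :: l => a / q + (l.map (fw q a)).sum + W q l

theorem W_cons (q a : ℤ) (l : List ℤ) : W q (a :: l) = a / q + (l.map (fw q a)).sum + W q l := rfl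

theorem fw_comm (q a b : ℤ) : fw q a b = fw q b a := by
  simp only [fw, add_comm a, dvd_sub_comm (b := a)]

theorem fw_zero (q b : ℤ) : fw q 0 b = 0 := by simp [fw]

theorem fw_neg (q a b : ℤ) : fw q (-a) b = -fw q a b := by
  rw [fw, fw, neg_sub, neg_add_eq_sub, ← neg_add']
  simp only [dvd_neg, dvd_sub_comm (b := a)]

theorem fw_sub (q a r b : ℤ) : fw q (a - q * r) b = fw q a b := by
  rw [fw, fw, show a - q * r + b = a + b - q * r by ring, sub_right_comm]
  simp only [dvd_sub_left (dvd_mul_right q r)]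

theorem W_move (q a : ℤ) (u v : List ℤ) : W q (u ++ a :: v) = W q (a :: (u ++ v)) := by
  induction u with
  | nil => rfl
  | cons b u ih =>
    simp only [List.cons_append, W_cons, ih, List.map_append, List.map_cons, List.sum_append,
      List.sum_cons, fw_comm q a b]
    ring

theorem exists_set (l : List ℤ) (i : Fin l.length) :
    ∃ u v, l = u ++ l[i] :: v ∧ ∀ x, l.set i x = u ++ x :: v :=
  ⟨l.take i, l.drop (i + 1), by simp, fun x => by
    rw [List.set_eq_take_append_cons_drop, if_pos i.2]⟩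

theorem W_set {q : ℤ} (hq : q ≠ 0) (l : List ℤ) (i : Fin l.length) (r : ℤ) :
    W q (l.set i (l[i] - q * r)) = W q l - r := by
  obtain ⟨u, v, h1, h2⟩ := exists_set l i
  rw [h2]
  conv_rhs => rw [h1]
  rw [W_move, W_move, W_cons, W_cons, funext (fw_sub q _ r), Int.sub_mul_ediv_left _ _ hq]
  ring

theorem W_nonneg {q : ℤ} (hq : 0 < q) (n : ℕ) : ∀ l : List ℤ, l.length = n → (∀ b ∈ l, 0 < b) →
    l.Nodup → 0 ≤ W q l := by
  induction n with
  | zero => intro l hl _ _; rw [List.length_eq_zero_iff.1 hl]; rfl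
  | succ n ih =>
    intro l hl h hn
    obtain ⟨a, ha, hm⟩ := exists_max_image l.toFinset id (by
      rw [List.toFinset_nonempty_iff]; rintro rfl; simp at hl)
    simp only [List.mem_toFinset, id] at ha hm
    obtain ⟨u, v, rfl⟩ := List.append_of_mem ha
    rw [List.nodup_middle, List.nodup_cons] at hn
    have h1 : ∀ b ∈ u ++ v, b ∈ u ++ a :: v := fun b hb => by
      simp only [List.mem_append, List.mem_cons] at hb ⊢; tauto
    have h2 := ih (u ++ v) (by simp at hl ⊢; omega) (fun b hb => h b (h1 b hb)) hn.2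
    have h3 : #{b ∈ (u ++ v).toFinset | q ∣ a - b} ≤ #(Icc 1 (a / q)) := by
      refine card_le_card_of_injOn (fun b => (a - b) / q) ?_ ?_
      · intro b hb
        simp only [coe_filter, List.mem_toFinset, Set.mem_ofPred_eq] at hb
        have h4 := hm b (h1 b hb.1)
        have h5 : a ≠ b := fun e => hn.1 (e ▸ hb.1)
        exact mem_Icc.2 ⟨Int.ediv_pos_of_pos_of_dvd (by omega) hq.le hb.2,
          Int.ediv_le_ediv hq (by have := h b (h1 b hb.1); omega)⟩
      · intro b hb c hc e
        have h4 := Int.mul_ediv_cancel' (mem_filter.1 hb).2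
        have h5 := Int.mul_ediv_cancel' (mem_filter.1 hc).2
        simp only at e
        rw [e] at h4
        omega
    have h4 : -(#{b ∈ (u ++ v).toFinset | q ∣ a - b} : ℤ) ≤ ((u ++ v).map (fw q a)).sum := by
      rw [← List.sum_toFinset _ hn.2, card_filter, Nat.cast_sum, ← sum_neg_distrib]
      refine sum_le_sum fun b _ => ?_
      unfold fw
      split_ifs <;> simp
    have h5 : 0 ≤ a / q := Int.ediv_nonneg (h a ha).le hq.le
    rw [Int.card_Icc] at h3
    rw [W_move, W_cons]
    omega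

theorem exists_reduce {q : ℤ} (hq : 0 < q) (hq' : Odd q) (α : List ℤ) :
    ∃ (l : List ℤ) (c : ℂ), (∀ b ∈ l, 0 < b) ∧ l.Nodup ∧ Q α = c • Q l ∧
      (c = 0 ∨ W q α = W q l ∧ ∀ a, (α.map (fw q a)).sum = (l.map (fw q a)).sum) := by
  induction α with
  | nil => exact ⟨[], 1, by simp, by simp, by simp, Or.inr ⟨rfl, fun _ => rfl⟩⟩
  | cons a α ih =>
    obtain ⟨l, c, h1, h2, h3, h4⟩ := ih
    have h0 : Q (a :: α) = 0 → _ := fun h =>
      (⟨[], 0, by simp, by simp, by simp [h], Or.inl rfl⟩ : ∃ (l : List ℤ) (c : ℂ),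
        (∀ b ∈ l, 0 < b) ∧ l.Nodup ∧ Q (a :: α) = c • Q l ∧ (c = 0 ∨ W q (a :: α) = W q l ∧
        ∀ b, ((a :: α).map (fw q b)).sum = (l.map (fw q b)).sum))
    have h5 : Q (a :: α) = c • Q (a :: l) := by rw [Q_cons, h3, map_smul, Q_cons]
    rcases h4 with rfl | ⟨h4, h6⟩
    · exact h0 (by simp [h5])
    rcases lt_trichotomy a 0 with ha | rfl | ha
    · by_cases h7 : -a ∈ l
      · obtain ⟨u, v, rfl⟩ := List.append_of_mem h7
        rw [List.nodup_middle, List.nodup_cons] at h2
        have h8 : ∀ b ∈ u ++ v, 0 < b := fun b hb => h1 b (by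
          simp only [List.mem_append, List.mem_cons] at hb ⊢; tauto)
        refine ⟨u ++ v, c * ((-1) ^ u.length * (2 * (-1) ^ (-a))), h8, h2.2, ?_, Or.inr ⟨?_, ?_⟩⟩
        · have := Q_neg_cons (a := -a) (l := u ++ v) (by omega) fun b hb e => h2.1 (e ▸ hb)
          rw [neg_neg] at this
          rw [h5, Q_cons, Q_move u v fun b hb => by have := h8 b (by simp [hb]); omega, map_smul,
            ← Q_cons, this, smul_smul, smul_smul, mul_assoc]
        · have h9 : q ∣ a - -a ↔ q ∣ a := by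
            rw [show a - -a = 2 * a by ring]
            exact ⟨(Int.isCoprime_two_right.2 hq').dvd_of_dvd_mul_left, fun h => h.mul_left 2⟩
          have h10 : ∀ m : List ℤ, (m.map (fw q (-a))).sum = -(m.map (fw q a)).sum := fun m => by
            rw [List.sum_neg, List.map_map, funext (fw_neg q a)]; rfl
          rw [W_cons, h4, h6, W_move, W_cons, Int.neg_ediv, h10, List.map_append,
            List.map_cons, List.sum_append, List.sum_cons, fw, Int.sign_eq_one_of_pos hq]
          simp only [h9, List.map_append, List.sum_append, add_neg_cancel, dvd_zero, if_true]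
          split_ifs <;> ring
        · intro b
          rw [List.map_cons, List.sum_cons, h6, List.map_append, List.map_append, List.map_cons,
            List.sum_append, List.sum_append, List.sum_cons, fw_comm q b (-a), fw_neg, fw_comm q a]
          ring
      · exact h0 (by rw [h5, Q_neg ha l fun b hb e => h7 (by rwa [show -a = b by omega]),
          smul_zero])
    · refine ⟨l, c * (-1) ^ l.length, h1, h2, by rw [h5, Q_zero h1, smul_smul], Or.inr ⟨?_, ?_⟩⟩
      · rw [W_cons, h4, h6, funext (fw_zero q)]; simp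
      · intro b
        rw [List.map_cons, List.sum_cons, h6, fw_comm, fw_zero, zero_add]
    · by_cases h7 : a ∈ l
      · exact h0 (by rw [h5, Q_of_mem h1 h7, smul_zero])
      · refine ⟨a :: l, c, List.forall_mem_cons.2 ⟨ha, h1⟩, List.nodup_cons.2 ⟨h7, h2⟩, h5,
          Or.inr ⟨by rw [W_cons, W_cons, h4, h6], fun b => ?_⟩⟩
        simp only [List.map_cons, List.sum_cons, h6]

theorem sum_le_mul_W {q : ℕ} (hq : Odd q) (ρ₂ ρ₁ : Multiset ℕ) : ∀ l : List ℤ,
    (∀ r ∈ ρ₁, q ∣ r) → Q l (ρ₁ + ρ₂) ≠ 0 → (ρ₁.sum : ℤ) ≤ q * W q l := by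
  have hq0 : (0 : ℤ) < q := by have := hq.pos; omega
  induction ρ₁ using Multiset.induction_on with
  | empty =>
    intro α _ h
    obtain ⟨l, c, h1, h2, h3, rfl | h4⟩ := exists_reduce hq0 hq.natCast α
    · simp [h3] at h
    · rw [h4.1]
      exact mul_nonneg hq0.le (W_nonneg hq0 _ l rfl h1 h2)
  | cons r ρ ih =>
    intro l h1 h2
    obtain ⟨r, rfl⟩ := h1 r (Multiset.mem_cons_self _ _)
    rw [Multiset.cons_add, ← J_apply _ (Q l), J_Q, Pi.smul_apply, Finset.sum_apply] at h2
    obtain ⟨i, -, hi⟩ := exists_ne_zero_of_sum_ne_zero (right_ne_zero_of_smul h2)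
    have h3 := ih _ (fun s hs => h1 s (Multiset.mem_cons_of_mem hs)) hi
    rw [Nat.cast_mul, W_set hq0.ne'] at h3
    rw [Multiset.sum_cons, Nat.cast_add, Nat.cast_mul]
    linarith

/-- The degree divided by the factorial. -/
def K : List ℤ → ℚ
  | [] => 1
  | a :: l => (l.map fun b : ℤ => ((a : ℚ) - b) / (a + b)).prod / a.toNat.factorial * K l

theorem K_cons (a : ℤ) (l : List ℤ) : K (a :: l) =
    (l.map fun b : ℤ => ((a : ℚ) - b) / (a + b)).prod / a.toNat.factorial * K l := rfl

theorem K_move (a : ℤ) (u v : List ℤ) : K (u ++ a :: v) = (-1) ^ u.length * K (a :: (u ++ v)) := by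
  induction u with
  | nil => simp
  | cons b u ih =>
    simp only [List.cons_append, K_cons, ih, List.map_append, List.map_cons, List.prod_append,
      List.prod_cons, List.length_cons]
    rw [← neg_sub (a : ℚ), add_comm (b : ℚ)]
    ring

theorem K_of_not_nodup {l : List ℤ} (hl : ¬ l.Nodup) : K l = 0 := by
  induction l with
  | nil => simp at hl
  | cons a l ih =>
    rw [K_cons]
    by_cases ha : a ∈ l
    · rw [List.prod_eq_zero (List.mem_map.2 ⟨a, ha, by simp⟩)]; simp
    · rw [ih fun h2 => hl (List.nodup_cons.2 ⟨ha, h2⟩), mul_zero]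

open Polynomial in
theorem sum_lagrange (s : Finset ℤ) (h : ∀ b ∈ s, 0 < b) :
    ∑ a ∈ s, (a : ℚ) * ∏ b ∈ s.erase a, ((a - 1 - b) * (a + b) / ((a - b) * (a - 1 + b)) : ℚ) =
      ∑ a ∈ s, (a : ℚ) := by
  rcases s.eq_empty_or_nonempty with rfl | hs
  · simp
  have h1 : Set.InjOn (fun a : ℤ => (a : ℚ) * (a - 1)) s := fun a ha b hb e => by
    have h2 : a * (a - 1) = b * (b - 1) := by simp only at e; exact_mod_cast e
    have h3 := h a ha
    have h4 := h b hb
    have h5 : (a - b) * (a + b - 1) = 0 := by linear_combination h2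
    rcases mul_eq_zero.1 h5 with h6 | h6 <;> omega
  have hd : ∀ v : ℤ → ℚ, (∏ b ∈ s, (X - C (v b))).degree = ((#s : ℕ) : WithBot ℕ) := fun v => by
    rw [degree_prod, sum_congr rfl fun b _ => degree_X_sub_C (v b)]; simp
  have hm : ∀ v : ℤ → ℚ, (∏ b ∈ s, (X - C (v b))).Monic := fun v => monic_prod_X_sub_C _ _
  have h2 := Lagrange.coeff_eq_sum h1 (P := ∏ b ∈ s, (X - C ((b : ℚ) * (b + 1))) -
    ∏ b ∈ s, (X - C ((b : ℚ) * (b - 1)))) (by
      rw [← hd fun b => (b : ℚ) * (b + 1)]
      exact degree_sub_lt_left ((hd _).trans (hd _).symm) (hm _).ne_zero ((hm _).trans (hm _).symm))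
  rw [coeff_sub, prod_X_sub_C_coeff_card_pred _ _ hs.card_pos,
    prod_X_sub_C_coeff_card_pred _ _ hs.card_pos, neg_sub_neg, ← sum_sub_distrib] at h2
  apply mul_left_cancel₀ (show (-2 : ℚ) ≠ 0 by norm_num)
  rw [mul_sum, mul_sum, sum_congr rfl (g := fun a : ℤ => (a : ℚ) * (a - 1) - a * (a + 1))
    (f := fun a : ℤ => -2 * (a : ℚ)) fun a _ => by ring, h2]
  refine sum_congr rfl fun a ha => ?_
  simp only [eval_sub, eval_prod, eval_X, eval_C]
  rw [prod_eq_zero (f := fun x : ℤ => (a : ℚ) * (a - 1) - x * (x - 1)) ha (sub_self _), sub_zero, ← mul_prod_erase _ _ ha, mul_div_assoc,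
    ← prod_div_distrib, ← mul_assoc]
  congr 1
  · ring
  · exact prod_congr rfl fun b _ => by congr 1 <;> ring

theorem K_pred {a : ℤ} {m : List ℤ} (ha : 0 < a) (h : ∀ b ∈ m, 0 < b) (hn : (a :: m).Nodup) :
    K ((a - 1) :: m) = K (a :: m) * (a * ∏ b ∈ m.toFinset,
      ((a - 1 - b) * (a + b) / ((a - b) * (a - 1 + b)) : ℚ)) := by
  rw [List.nodup_cons] at hn
  obtain ⟨c, rfl⟩ : ∃ c : ℕ, a = c + 1 := ⟨(a - 1).toNat, by omega⟩
  rw [K_cons, K_cons, ← List.prod_toFinset _ hn.2, ← List.prod_toFinset _ hn.2,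
    add_sub_cancel_right, Int.toNat_natCast, Int.toNat_natCast_add_one, Nat.factorial_succ]
  have h1 : ∏ b ∈ m.toFinset, (((c : ℤ) : ℚ) - b) / ((c : ℤ) + b) =
      (∏ b ∈ m.toFinset, (((c + 1 : ℤ) : ℚ) - b) / ((c + 1 : ℤ) + b)) * ∏ b ∈ m.toFinset,
      ((((c + 1 : ℤ) : ℚ) - 1 - b) * ((c + 1 : ℤ) + b) /
        (((c + 1 : ℤ) - b) * ((c + 1 : ℤ) - 1 + b)) : ℚ) := by
    rw [← prod_mul_distrib]
    refine prod_congr rfl fun b hb => ?_
    rw [List.mem_toFinset] at hb
    have h2 := h b hb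
    have h3 : ((c + 1 : ℤ) : ℚ) - b ≠ 0 := by
      rw [sub_ne_zero, Ne, Int.cast_inj]; exact fun e => hn.1 (e ▸ hb)
    have h4 : ((c + 1 : ℤ) : ℚ) + b ≠ 0 := by norm_cast; omega
    have h6 : ((c : ℤ) : ℚ) + b ≠ 0 := by norm_cast; omega
    have h5 : ((c + 1 : ℤ) : ℚ) - 1 + b ≠ 0 := by simpa using h6
    field_simp
    push_cast
    ring
  rw [h1]
  have h2 : (c.factorial : ℚ) ≠ 0 := Nat.cast_ne_zero.2 c.factorial_ne_zero
  push_cast
  field_simp

/-- Schur's degree formula. -/
theorem Q_one (n : ℕ) : ∀ l : List ℤ, l.sum = n → (∀ b ∈ l, 0 < b) →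
    Q l (Multiset.replicate n 1) = n.factorial * (K l : ℂ) := by
  induction n with
  | zero =>
    rintro (_ | ⟨a, l⟩) hl h
    · simp [Q_nil, vac, K]
    · have := List.sum_pos _ h (by simp)
      omega
  | succ n ih =>
    intro l hl h
    by_cases hn : l.Nodup
    swap
    · simp [Q_of_not_nodup h hn, K_of_not_nodup hn]
    have h1 : ∀ i : Fin l.length, Q (l.set i (l[i] - (1 : ℕ))) (Multiset.replicate n 1) =
        n.factorial * ((K l * (l[i] * ∏ b ∈ l.toFinset.erase l[i],
          ((l[i] - 1 - b) * (l[i] + b) / ((l[i] - b) * (l[i] - 1 + b)) : ℚ)) : ℚ) : ℂ) := by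
      intro i
      obtain ⟨u, v, h1, h2⟩ := exists_set l i
      rw [h2]
      generalize l[i] = a at h1
      subst h1
      rw [List.nodup_middle] at hn
      have h3 := h a (by simp)
      have h4 : ∀ b ∈ u ++ v, 0 < b := fun b hb => h b (by
        simp only [List.mem_append, List.mem_cons] at hb ⊢; tauto)
      have h5 : (u ++ a :: v).toFinset.erase a = (u ++ v).toFinset := by
        rw [List.toFinset_eq_of_perm _ _ List.perm_middle, List.toFinset_cons, erase_insert]
        simpa using (List.nodup_cons.1 hn).1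
      simp only [List.sum_append, List.sum_cons] at hl
      rw [h5, K_move, mul_assoc, ← K_pred h3 h4 hn, Q_move u v fun b hb => by
        have := h4 b (by simp [hb]); omega, Pi.smul_apply, Nat.cast_one]
      rcases (show 0 ≤ a - 1 by omega).eq_or_lt with h6 | h6
      · rw [← h6, Q_zero h4, Pi.smul_apply, ih _ (by rw [List.sum_append]; omega) h4, K_cons,
          List.map_congr_left (g := fun _ => -1) fun b hb => by
            have : (b : ℚ) ≠ 0 := by have := h4 b hb; norm_cast; omega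
            simp [neg_div_self this]]
        simp
        ring
      · rw [ih _ (by rw [List.sum_cons, List.sum_append]; omega) (List.forall_mem_cons.2 ⟨h6, h4⟩)]
        simp
        ring
    rw [Multiset.replicate_succ, ← J_apply _ (Q l), J_Q, Pi.smul_apply, Finset.sum_apply,
      sum_congr rfl fun i _ => h1 i, ← mul_sum, ← Rat.cast_sum, ← mul_sum]
    simp only [Fin.getElem_fin]
    rw [Fin.sum_univ_fun_getElem l fun a => (a : ℚ) * ∏ b ∈ l.toFinset.erase a,
        ((a - 1 - b) * (a + b) / ((a - b) * (a - 1 + b)) : ℚ), ← List.sum_toFinset _ hn,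
      sum_lagrange _ fun b hb => h b (List.mem_toFinset.1 hb), ← Int.cast_sum,
      List.sum_toFinset _ hn, List.map_id', hl, Nat.factorial_succ]
    simp [wo]
    ring

variable {p : ℕ} [hp : Fact p.Prime]

theorem padicValRat_int {z : ℤ} (hz : z ≠ 0) {M : ℕ} (h : z.natAbs < M) :
    padicValRat p z = ∑ k ∈ Ico 1 M, if (p : ℤ) ^ k ∣ z then 1 else 0 := by
  rw [padicValRat.of_int, padicValInt, ← Nat.factorization_def _ hp.out,
    Nat.factorization_eq_card_pow_dvd_of_lt hp.out (Int.natAbs_pos.2 hz)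
      (h.trans (Nat.lt_pow_self hp.out.one_lt)), card_filter]
  simp only [← Int.natCast_dvd, Nat.cast_pow, Nat.cast_sum, Nat.cast_ite, Nat.cast_one,
    Nat.cast_zero]

theorem padicValRat_K {M : ℕ} (l : List ℤ) : (∀ b ∈ l, 0 < b) → (∀ b ∈ l, 2 * b < M) → l.Nodup →
    K l ≠ 0 ∧ padicValRat p (K l) = -∑ k ∈ Ico 1 M, W (p ^ k) l := by
  induction l with
  | nil => simp [K, W]
  | cons a l ih =>
    intro h hM hn
    rw [List.forall_mem_cons] at h hM
    rw [List.nodup_cons] at hn
    obtain ⟨h1, h2⟩ := ih h.2 hM.2 hn.2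
    have h3 : ∀ m : List ℤ, (∀ b ∈ m, b ∈ l) →
        (m.map fun b : ℤ => ((a : ℚ) - b) / (a + b)).prod ≠ 0 ∧
        padicValRat p (m.map fun b : ℤ => ((a : ℚ) - b) / (a + b)).prod =
          -∑ k ∈ Ico 1 M, (m.map (fw (p ^ k) a)).sum := by
      intro m hm
      induction m with
      | nil => simp
      | cons b m ih =>
        rw [List.forall_mem_cons] at hm
        obtain ⟨h3, h4⟩ := ih hm.2
        have h5 := h.2 b hm.1
        have h6 := hM.2 b hm.1
        have h7 : a - b ≠ 0 := fun e => hn.1 (by rw [sub_eq_zero.1 e]; exact hm.1)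
        have h8 : a + b ≠ 0 := by omega
        have h9 : (a : ℚ) - b ≠ 0 := by exact_mod_cast h7
        have h10 : (a : ℚ) + b ≠ 0 := by exact_mod_cast h8
        rw [List.map_cons, List.prod_cons]
        refine ⟨mul_ne_zero (div_ne_zero h9 h10) h3, ?_⟩
        rw [padicValRat.mul (div_ne_zero h9 h10) h3, padicValRat.div h9 h10, h4, ← Int.cast_sub,
          ← Int.cast_add, padicValRat_int h7 (M := M) (by omega),
          padicValRat_int h8 (M := M) (by omega)]
        simp only [List.map_cons, List.sum_cons, fw, sum_add_distrib, sum_sub_distrib]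
        ring
    obtain ⟨h4, h5⟩ := h3 l fun _ => id
    have h6 : (a.toNat.factorial : ℚ) ≠ 0 := Nat.cast_ne_zero.2 (Nat.factorial_ne_zero _)
    rw [K_cons]
    refine ⟨mul_ne_zero (div_ne_zero h4 h6) h1, ?_⟩
    rw [padicValRat.mul (div_ne_zero h4 h6) h1, padicValRat.div h4 h6, h5, h2, padicValRat.of_nat,
      padicValNat_factorial (b := M) ((Nat.log_le_self _ _).trans_lt (by omega))]
    simp only [W_cons, sum_add_distrib, Nat.cast_sum, Int.natCast_div, Nat.cast_pow,
      Int.toNat_of_nonneg h.1.le]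
    ring

/-- The weight is bounded by the defect. -/
theorem factorization_add_W_le (hp2 : p ≠ 2) {l : List ℤ} {n : ℕ} (hl : l.sum = n)
    (h : ∀ b ∈ l, 0 < b) (hn : l.Nodup) {d a : ℕ}
    (hd : (d : ℝ) = ‖2 ^ a * Q l (Multiset.replicate n 1)‖) :
    d.factorization p + W p l ≤ n.factorial.factorization p := by
  obtain ⟨h1, h2⟩ := padicValRat_K (p := p) (M := 2 * n + 2) l h (fun b hb => by
    have := List.single_le_sum (fun b hb => (h b hb).le) b hb
    omega) hn
  have h3 : (d : ℚ) = 2 ^ a * (n.factorial * |K l|) := by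
    rw [Q_one n l hl h, norm_mul, norm_mul, Complex.norm_ratCast] at hd
    simp only [norm_pow, Complex.norm_ofNat, Complex.norm_natCast] at hd
    exact_mod_cast hd
  have h4 : (n.factorial : ℚ) ≠ 0 := Nat.cast_ne_zero.2 n.factorial_ne_zero
  have h5 := congrArg (padicValRat p) h3
  have h6 : padicValRat p |K l| = padicValRat p (K l) := by
    rcases abs_choice (K l) with h | h <;> simp [h]
  have h7 : padicValRat p 2 = 0 := by
    rw [← Nat.cast_ofNat, padicValRat.of_nat, padicValNat_primes (p := p) (q := 2) hp2]; rfl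
  rw [padicValRat.mul (by simp) (mul_ne_zero h4 (abs_ne_zero.2 h1)),
    padicValRat.mul h4 (abs_ne_zero.2 h1), h6, h2, padicValRat.pow, h7, padicValRat.of_nat,
    padicValRat.of_nat] at h5
  have h8 := single_le_sum (f := fun k => W (p ^ k) l) (s := Ico 1 (2 * n + 2)) (a := 1)
    (fun k _ => W_nonneg (pow_pos (by have := hp.out.pos; omega) k) _ l rfl h hn) (by simp)
  rw [Nat.factorization_def _ hp.out, Nat.factorization_def _ hp.out]
  rw [pow_one] at h8
  omega

end Cfsg.Agent.Spin
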