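import Cfsg.Agent.Spin.Tau
import Cfsg.Agent.Spin.Lat
import Cfsg.Agent.Spin.Wt
import Cfsg.Agent.Sym.Ht
import Cfsg.Agent.Sym.Van
import Cfsg.Agent.Char.PermChar
import Cfsg.Agent.Char.Inflate
import Cfsg.Agent.Char.RelDeg
import Cfsg.Agent.Block.Cover

/-!
# The spin characters of the symmetric and alternating groups
-/

set_option linter.unusedSectionVars false

namespace Cfsg.Agent.Spin

open Equiv Finset Cfsg Cfsg.Agent.Char Cfsg.Agent.Block Cfsg.Agent.SymCh MulAction
open scoped ComplexConjugate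

variable {α : Type} [Fintype α] [DecidableEq α] {G : Type*} [Group G] [Fintype G]

theorem P_parts {l : ℕ} (μ : Fin l → ℕ) (σ : Perm α) : P μ (parts σ) = wO 1 (parts σ) *
    #{f : α → Fin l | f ∘ σ = f ∧ cont f = Finsupp.equivFunOnFinite.symm μ} := by
  rw [P, toFn, coeff_psum_prod]

theorem isCharacter_P (φ : G →* Pin α) {ε a l : ℕ} (hε : ε = 0 ∨ ε = 1 ∧ ∀ h, φ h ∈ Cov α)
    (hn : Fintype.card α = l + 2 * a + ε) (μ : Fin l → ℕ) : IsCharacter G fun g =>
      2 ^ a * τ (φ g) * ((2 : ℂ) ^ #{j | μ j = 0} • P μ) (parts (proj α (φ g))) := by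
  classical
  let X := {f : α → Fin l // cont f = Finsupp.equivFunOnFinite.symm μ}
  let _ : MulAction G X :=
    { smul := fun g f => ⟨f.1 ∘ ⇑(proj α (φ g))⁻¹, by rw [cont_comp, f.2]⟩
      one_smul := fun f => Subtype.ext (by change f.1 ∘ _ = f.1; simp)
      mul_smul := fun g h f => Subtype.ext (by change f.1 ∘ _ = (f.1 ∘ _) ∘ _; simp; rfl) }
  have h0 : ∀ g (f : X), g • f = f ↔ f.1 ∘ proj α (φ g) = f.1 := fun g f => by
    rw [Subtype.ext_iff]
    change f.1 ∘ ⇑(proj α (φ g))⁻¹ = f.1 ↔ _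
    rw [Perm.inv_def, comp_symm_eq, eq_comm]
  have := Fintype.ofFinite (orbitRel.Quotient G X)
  let θ : G → ℂ := fun g => 2 ^ (a + #{j | μ j = 0}) * τ (φ g)
  have hθ : IsClassFunction G θ := fun g h => by
    simp only [θ, map_mul]
    rw [τ_mul_comm, ← mul_assoc, ← map_mul, inv_mul_cancel, map_one, one_mul]
  have h1 : ∀ f : X, IsCharacter (stabilizer G f) fun h => 1 * θ h := fun f => by
    have h2 : #(univ.image f.1) + #{j | μ j = 0} = l := by
      have : univ.image f.1 = ({j | ¬ μ j = 0} : Finset (Fin l)) := by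
        ext j
        have := cont_apply f.1 j
        rw [f.2, Finsupp.equivFunOnFinite_symm_apply_apply] at this
        simp [this, filter_eq_empty_iff]
      rw [this, add_comm, card_filter_add_card_filter_not, card_fin]
    obtain ⟨k, c, h3, h4⟩ : ∃ k c, 2 * k ≤ Fintype.card α + #(univ.image f.1) + ε ∧
        a + #{j | μ j = 0} + k = Fintype.card α + c :=
      ⟨(Fintype.card α + #(univ.image f.1) + ε) / 2, a + #{j | μ j = 0} +
        (Fintype.card α + #(univ.image f.1) + ε) / 2 - Fintype.card α, by omega, by omega⟩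
    convert (isCharacter_τ (φ.comp (stabilizer G f).subtype) (fun h => (h0 _ f).1 h.2)
      (hε.imp_right fun h => ⟨h.1, fun g => h.2 g⟩) h3).nsmul (2 ^ c) using 2 with h
    simp only [θ, Pi.smul_apply, nsmul_eq_mul, one_mul, MonoidHom.comp_apply,
      Subgroup.subtype_apply]
    rw [← mul_div_assoc, eq_div_iff (by simp), mul_right_comm, ← pow_add, h4, pow_add]
    simp
    ring
  convert isCharacter_sum univ _ fun (ω : orbitRel.Quotient G X) _ =>
    isCharacter_indFun _ (h1 ω.out) using 2 with g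
  simp only [indFun_mul_restrict _ _ hθ, Finset.sum_apply, ← sum_mul]
  rw [← PermChar.card_fixedBy_eq_sum_orbits _ fun ω => ω.out_eq', Pi.smul_apply, P_parts, smul_eq_mul,
    ← Nat.card_eq_finsetCard ({f | _} : Finset (α → Fin l)), Nat.card_congr (β := fixedBy X g)
    { toFun := fun f => ⟨⟨f.1, (mem_filter.1 f.2).2.2⟩, (h0 _ _).2 (mem_filter.1 f.2).2.1⟩
      invFun := fun f => ⟨f.1.1, mem_filter.2 ⟨mem_univ _, (h0 _ _).1 f.2, f.1.2⟩⟩
      left_inv := fun f => rfl
      right_inv := fun f => rfl }]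
  simp only [θ, pow_add]
  linear_combination 2 ^ a * 2 ^ #{j | μ j = 0} * Nat.card (fixedBy X g) * τ_mul_wO (φ g)

theorem isGen_of_mem_Lat (φ : G →* Pin α) {ε a l : ℕ} (hε : ε = 0 ∨ ε = 1 ∧ ∀ h, φ h ∈ Cov α)
    (hn : Fintype.card α = l + 2 * a + ε) {F : Fm} (hF : F ∈ Lat l) :
    IsGeneralizedCharacter G fun g => 2 ^ a * τ (φ g) * F (parts (proj α (φ g))) := by
  induction hF using AddSubgroup.closure_induction with
  | mem F hF => obtain ⟨μ, rfl⟩ := hF; exact (isCharacter_P φ hε hn μ).isGen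
  | zero => simp only [Pi.zero_apply, mul_zero]; exact isGen_zero
  | add F G _ _ hF hG => simp only [Pi.add_apply, mul_add]; exact hF.add hG
  | neg F _ hF => simp only [Pi.neg_apply, mul_neg]; exact hF.neg

theorem conj_of_mem_Lat {l : ℕ} {F : Fm} (hF : F ∈ Lat l) (σ : Perm α) :
    conj (F (parts σ)) = F (parts σ) := by
  induction hF using AddSubgroup.closure_induction with
  | mem F hF =>
    obtain ⟨μ, rfl⟩ := hF
    by_cases h : ∀ r ∈ parts σ, Odd r
    · simp [P_parts, wO_of_odd 1 h, map_ofNat]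
    · simp [P_parts, wO_of_not_odd 1 h]
  | zero => simp
  | add F G _ _ hF hG => simp [hF, hG]
  | neg F _ hF => simp [hF]

/-- The spin character with label `l`. -/
noncomputable def ζ (a : ℕ) (l : List ℤ) (g : Pin α) : ℂ := 2 ^ a * τ g * Q l (parts (proj α g))

theorem classInner_ζ (a : ℕ) {l : List ℤ} (hl : l.sum = Fintype.card α) (h : ∀ b ∈ l, 0 < b)
    (hn : l.Nodup) : classInner (ζ a l : Pin α → ℂ) (ζ a l) =
      2 ^ (l.length + 2 * a) / 2 ^ Fintype.card α := by
  have h1 := avg_comp_surjective (proj α) proj_surjective fun σ => 2 ^ (2 * a) /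
    2 ^ Fintype.card α * (wO 2 (parts σ) * Q l (parts σ) * Q l (parts σ))
  rw [← mul_sum _ (fun σ : Perm α => wO 2 (parts σ) * Q l (parts σ) * Q l (parts σ)),
    sum_perm fun ρ => wO 2 ρ * Q l ρ * Q l ρ, ← B, B_Q_Q l _ hl h hn] at h1
  rw [classInner, sum_congr rfl fun g _ => ?_, h1]
  · have : ((Fintype.card α).factorial : ℂ) ≠ 0 := Nat.cast_ne_zero.2 (Nat.factorial_ne_zero _)
    simp only [Nat.card_eq_fintype_card, Fintype.card_perm, pow_add]
    field_simp
  · simp only [ζ, map_mul, conj_of_mem_Lat (Q_mem l h), map_pow, map_ofNat]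
    linear_combination 2 ^ (2 * a) * Q l (parts (proj α g)) ^ 2 * norm_τ g

theorem classInner_ζ_cov [Nontrivial α] (a : ℕ) (l : List ℤ) :
    classInner (fun g : Cov α => ζ a l g.1) (fun g => ζ a l g.1) =
      2 * classInner (ζ a l : Pin α → ℂ) (ζ a l) := by
  classical
  have h1 : ∑ g : Cov α, ζ a l g.1 * conj (ζ a l g.1) = ∑ g : Pin α, ζ a l g * conj (ζ a l g) := by
    rw [← sum_subtype ({g | g ∈ Cov α} : Finset (Pin α)) (by simp) fun g => ζ a l g * conj (ζ a l g)]
    exact sum_subset (filter_subset _ _) fun g _ hg => by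
      simp [ζ, τ_eq_zero (g := g) (by simpa using hg)]
  have h2 : (Nat.card (Cov α) : ℂ) ≠ 0 := Nat.cast_ne_zero.2 Nat.card_pos.ne'
  rw [classInner, classInner, h1, ← (Cov α).card_mul_index, index_Cov]
  push_cast
  field_simp

/-- The cycles of length divisible by `p` of an element outside the zero set of `χ` are bounded by
the defect of `χ`. -/
def WP (p : ℕ) {G α : Type*} [Group G] [Fintype α] [DecidableEq α] (π : G →* Perm α) (χ : G → ℂ) :
    Prop := ∀ g, χ g ≠ 0 → ((parts (π g)).filter (p ∣ ·)).sum + p * (charDegree χ).factorization p ≤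
      p * (Fintype.card α).factorial.factorization p

variable {p : ℕ} [hp : Fact p.Prime]

theorem wp_of_ζ (hp2 : p ≠ 2) (φ : G →* Pin α) {a : ℕ} {l : List ℤ} (hl : l.sum = Fintype.card α)
    (h : ∀ b ∈ l, 0 < b) (hn : l.Nodup) {χ : G → ℂ} (hχ : IsIrrCharacter G χ)
    (e : (fun g => ζ a l (φ g)) = χ ∨ (fun g => ζ a l (φ g)) = -χ) :
    WP p ((proj α).comp φ) χ := by
  intro g hg
  have h1 : ∀ g, ‖χ g‖ = ‖ζ a l (φ g)‖ := fun g => by
    rcases e with e | e <;> simp [congrFun e g]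
  have h2 : Q l (parts (proj α (φ g))) ≠ 0 := fun h2 => hg (by
    rw [← norm_eq_zero, h1, ζ, h2, mul_zero, norm_zero])
  rw [← Multiset.filter_add_not (p ∣ ·) (parts _)] at h2
  have h3 := sum_le_mul_W (hp.out.odd_of_ne_two hp2) _ _ l (fun r hr => Multiset.of_mem_filter hr) h2
  have h4 := factorization_add_W_le hp2 hl h hn (d := charDegree χ) (a := a) (by
    rw [← Complex.norm_natCast, cast_charDegree hχ.isCharacter, h1, map_one, ζ, τ_one, map_one,
      parts_one, mul_one])
  have h5 := mul_le_mul_of_nonneg_left h4 (Nat.cast_nonneg p)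
  rw [mul_add] at h5
  exact_mod_cast (add_le_add_left h3 _).trans ((add_comm _ _).trans_le h5)

theorem wp_perm {α : Type*} [Fintype α] [DecidableEq α] (χ : IrrCharacter (Perm α)) :
    WP p (MonoidHom.id _) (χ : Perm α → ℂ) := by
  intro g hg
  obtain ⟨β, h⟩ := exists_lab_of_irr le_rfl χ
  rw [Ne, h.eq_zero_iff, chi, ← Multiset.filter_add_not (p ∣ ·) (parts _)] at hg
  have h1 := sum_le_mul_wt hp.out.pos _ _ β (fun r hr => Multiset.of_mem_filter hr) hg
  have h2 := Nat.mul_le_mul_left p (h.factorization_add_le hp.out)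
  rw [mul_add] at h2
  exact (add_le_add_left h1 _).trans ((add_comm _ _).trans_le h2)

theorem exists_label [Nontrivial α] {χ : Cov α → ℂ} (hz : χ (zA α) ≠ χ 1) :
    ∃ l : List ℤ, l.sum = Fintype.card α ∧ (∀ b ∈ l, 0 < b) ∧ l.Nodup ∧
      ∀ a, classInner χ (fun g => ζ a l g.1) ≠ 0 := by
  classical
  by_contra hc
  push Not at hc
  let Ψ : Fm := fun ρ => ∑ g : Cov α with parts (proj α (g : Cov α).1) = ρ, χ g * conj (τ g.1)
  have h1 := eq_zero_of_B (Fintype.card α) (fun ρ => Ψ ρ * zz ρ / wO 2 ρ) (fun l h1 h2 h3 => by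
    obtain ⟨a, ha⟩ := hc l h1 h2 h3
    simp only [classInner, ζ, map_mul, conj_of_mem_Lat (Q_mem l h2), map_pow, map_ofNat, mul_assoc,
      mul_left_comm _ ((2 : ℂ) ^ a), ← mul_sum, mul_eq_zero, pow_eq_zero_iff', OfNat.ofNat_ne_zero,
      false_and, false_or, inv_eq_zero, Nat.cast_eq_zero, Nat.card_pos.ne'] at ha
    rw [← ha, ← sum_fiberwise_of_maps_to (t := Pt (Fintype.card α))
      (g := fun g : Cov α => parts (proj α g)) fun g _ => parts_mem_Pt _, B, avg]
    refine sum_congr rfl fun ρ hρ => ?_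
    have h4 : (zz ρ : ℂ) ≠ 0 := Nat.cast_ne_zero.2 (zz_ne_zero (mem_Pt.1 hρ).1)
    rw [sum_congr rfl (g := fun g => χ g * conj (τ g.1) * Q l ρ) fun g hg => by
      rw [(mem_filter.1 hg).2, mul_assoc], ← sum_mul]
    by_cases h5 : ∀ r ∈ ρ, Odd r
    · have : wO 2 ρ ≠ 0 := by simp [wO_of_odd 2 h5]
      simp only [Ψ]
      field_simp
    · rw [wO_of_not_odd 2 h5, sum_eq_zero fun g hg => by
        rw [← τ_mul_wO, (mem_filter.1 hg).2, wO_of_not_odd 1 h5]; simp]
      simp) (Multiset.replicate (Fintype.card α) 1)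
    (fun r hr => by rw [Multiset.eq_of_mem_replicate hr]; decide) (by simp)
  have h2 : ({g : Cov α | parts (proj α g) = Multiset.replicate (Fintype.card α) 1} : Finset _) =
      {1, zA α} := by
    ext g
    rw [mem_filter, ← parts_one, ← isConj_iff_parts, isConj_one_left, proj_eq_one_iff]
    simp only [mem_univ, true_and, mem_insert, mem_singleton]
    exact or_congr (Subtype.ext_iff (a2 := (1 : Cov α))).symm (Subtype.ext_iff (a2 := zA α)).symm
  have h3 : τ (zP α) = -1 := by rw [← one_mul (zP α), τ_mul_zP, τ_one]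
  have h4 : (1 : Cov α) ≠ zA α := fun h => hz (h ▸ rfl)
  simp only [Ψ, h2, sum_pair h4, div_eq_zero_iff, mul_eq_zero, Nat.cast_eq_zero] at h1
  rcases h1 with (h1 | h1) | h1
  · apply hz
    simp only [OneMemClass.coe_one, τ_one, map_one, zA, h3, map_neg] at h1 ⊢
    linear_combination -h1
  · exact zz_ne_zero (fun r hr => by rw [Multiset.eq_of_mem_replicate hr]; decide) h1
  · rw [wO_of_odd 2 fun r hr => by rw [Multiset.eq_of_mem_replicate hr]; decide] at h1
    simp at h1

theorem wp_cases [Nontrivial α] (hp2 : p ≠ 2) (χ : IrrCharacter (Cov α)) :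
    WP p ((proj α).comp (Cov α).subtype) (χ : Cov α → ℂ) ∨ ∃ ψ : IrrCharacter (Pin α),
      classInner (fun g : Cov α => (ψ : Pin α → ℂ) g) (χ : Cov α → ℂ) ≠ 0 ∧
        WP p (proj α) (ψ : Pin α → ℂ) := by
  by_cases hz : (χ : Cov α → ℂ) (zA α) = (χ : Cov α → ℂ) 1
  · obtain ⟨ψ, hψ⟩ := exists_irr_over' (Cov α) χ
    have h1 := le_charKer_of_over (proj α).ker (X := Cov α) (fun g hg => by
      rw [Subgroup.mem_comap, MonoidHom.mem_ker.1 hg]; exact one_mem _) ψ.2 χ.2 hψ fun g hg => by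
      rw [mem_charKer_iff χ.2.isCharacter]
      rcases (proj_eq_one_iff (g := g.1)).1 hg with h | h
      · rw [show g = 1 from Subtype.ext h]
      · rw [show g = zA α from Subtype.ext h, hz]
    obtain ⟨η, rfl⟩ := (mem_range_inflateIrr (proj α) proj_surjective ψ).2 fun g hg =>
      (mem_charKer_iff ψ.2.isCharacter).1 (h1 hg)
    refine Or.inr ⟨_, hψ, fun g hg => ?_⟩
    rw [charDegree_inflateIrr]
    exact wp_perm η _ hg
  obtain ⟨l, h1, h2, h3, h4⟩ := exists_label hz
  have h5 : (l.length : ℤ) ≤ l.sum := by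
    simpa using List.card_nsmul_le_sum l 1 fun b hb => h2 b hb
  obtain ⟨a, ha | ha⟩ := Nat.even_or_odd' (Fintype.card α - l.length)
  · have ha' : Fintype.card α = l.length + 2 * a + 0 := by omega
    obtain ⟨ψ, hψ, e⟩ := (isGen_of_mem_Lat (MonoidHom.id _) (Or.inl rfl) ha'
      (Q_mem l h2)).exists_irr_of_inner_self ((classInner_ζ a h1 h2 h3).trans (by simp [ha']))
    refine Or.inr ⟨⟨ψ, hψ⟩, fun h => h4 a ?_, wp_of_ζ hp2 (MonoidHom.id _) h1 h2 h3 hψ e⟩
    rw [classInner_conj_symm', map_eq_zero]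
    rcases e with e | e
    · exact (congrArg (fun f : Pin α → ℂ => classInner (fun g : Cov α => f g) _) e).trans h
    · exact (congrArg (fun f : Pin α → ℂ => classInner (fun g : Cov α => f g) _) e).trans
        ((classInner_neg_left _ _).trans (neg_eq_zero.2 h))
  · have ha' : Fintype.card α = l.length + 2 * a + 1 := by omega
    obtain ⟨ψ, hψ, e⟩ := (isGen_of_mem_Lat (Cov α).subtype (Or.inr ⟨rfl, fun g => g.2⟩) ha'
      (Q_mem l h2)).exists_irr_of_inner_self ((classInner_ζ_cov a l).trans (by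
        rw [classInner_ζ a h1 h2 h3, ha', pow_succ]; field_simp))
    have : (χ : Cov α → ℂ) = ψ := χ.2.eq_of_inner_ne_zero hψ fun h => h4 a (by
      rcases e with e | e
      · exact (congrArg (classInner _) e).trans h
      · exact (congrArg (classInner _) e).trans ((classInner_neg_right _ _).trans (neg_eq_zero.2 h)))
    exact Or.inl (this ▸ wp_of_ζ hp2 (Cov α).subtype h1 h2 h3 hψ e)

end Cfsg.Agent.Spin
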