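import Cfsg.Agent.Block.HtBound
import Cfsg.Agent.Block.Contrib

/-!
# Robinson's bound for the heights: general lemmas
-/

set_option linter.unusedSectionVars false

namespace Cfsg.Agent.Spin

open Cfsg Cfsg.Agent.Char Cfsg.Agent.Block Subgroup

variable {G : Type*} [Group G] [Finite G] {M : Ideal AlgInt} {p : ℕ} [hp : Fact p.Prime]
  {B : Set (IrrCharacter G)} {P : Subgroup G} {e : MonoidAlgebra (resField M) G}

/-- Robinson's bound. -/
def Rb (p h : ℕ) (D : Type*) [Group D] : Prop :=
  h ≤ (center D).index.factorization p ∧ (h = (center D).index.factorization p ↔ IsMulCommutative D)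

theorem rb_of_card {D : Type*} [Group D] [Finite D] (hD : IsPGroup p D) {h : ℕ}
    (h1 : Nat.card (center D) * p ^ h ≤ Nat.card D)
    (h2 : ¬ IsMulCommutative D → Nat.card (center D) * p ^ h < Nat.card D) : Rb p h D := by
  obtain ⟨k, hk⟩ := hD.index (center D)
  rw [← (center D).card_mul_index, hk] at h1 h2
  rw [Nat.mul_le_mul_left_iff Nat.card_pos, Nat.pow_le_pow_iff_right hp.out.one_lt] at h1
  rw [Nat.mul_lt_mul_left Nat.card_pos, Nat.pow_lt_pow_iff_right hp.out.one_lt] at h2
  rw [Rb, hk, hp.out.factorization_pow, Finsupp.single_eq_same]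
  refine ⟨h1, fun h3 => by_contra fun h4 => (h2 h4).ne h3, fun h3 => ?_⟩
  rw [center_eq_top, index_top, eq_comm, Nat.pow_eq_one] at hk
  have := hp.out.one_lt
  omega

theorem rb_zero {D : Type*} [Group D] [Finite D] (hD : IsPGroup p D) : Rb p 0 D :=
  rb_of_card hD (by simpa using card_le_card_group _) fun h => by
    rw [pow_zero, mul_one]
    exact (card_le_card_group _).lt_of_ne fun h1 => h (center_eq_top_iff.1 (eq_top_of_card_eq _ h1))

theorem rb_of_small (hM : IsPModular p M) (hB : IsPBlock M B) (hD : IsDefectGroup p M B P)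
    {χ : IrrCharacter G} (hχ : χ ∈ B)
    (h : Nat.card P ≤ p ^ 2 ∨ Nat.card P = p ^ 3 ∧ ¬ IsMulCommutative P) :
    Rb p (blockHeight p B (χ : G → ℂ)) P := by
  have hP := isPGroup_of_isDefectGroup hD
  rw [card_defectGroup hM hB hD, Nat.pow_le_pow_iff_right hp.out.one_lt,
    Nat.pow_right_inj hp.out.one_lt] at h
  by_cases h0 : blockHeight p B (χ : G → ℂ) = 0
  · rw [h0]; exact rb_zero hP
  have h1 := blockHeight_add_two_le hM hB hχ h0
  obtain ⟨h2, h3⟩ := h.resolve_left (by omega)
  obtain ⟨k, hk⟩ := hP.index (center P)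
  have h4 : 2 ≤ k := by
    by_contra h4
    have : IsCyclic (P ⧸ center P) := isCyclic_of_card_dvd_prime (p := p) (by
      rw [← index, hk]
      exact (pow_dvd_pow p (by omega)).trans (pow_one p).dvd)
    exact h3 (isMulCommutative_of_isCyclic_quotient_center_self P)
  rw [Rb, hk, hp.out.factorization_pow, Finsupp.single_eq_same]
  exact ⟨by omega, fun h5 => by omega, fun h5 => (h3 h5).elim⟩

omit hp in
theorem card_mul_pow_lt_of_galAt {A : Type*} [Group A] [Fintype A] (hM : IsPModular p M)
    {F : A → ℂ} (hG : ∀ u, GalAt F u) (h0 : ∀ u, F u ≠ 0) {h : ℕ}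
    (hv : ∀ u, val M (F u) < val M (p : ℂ) ^ h) : Nat.card A * (p : ℝ) ^ h < ∑ u, ‖F u‖ := by
  obtain ⟨z, hz⟩ := exists_int_of_forall_ringEquiv (x := ∏ u, F u)
    (IsIntegral.prod _ fun u _ => (hG u).1) fun σ => by
      obtain ⟨m, hm, hσ⟩ := exists_pow_of_ringHom σ.toRingHom (n := Nat.card A) Nat.card_pos.ne'
      rw [map_prod, Finset.prod_congr rfl fun u _ => (hG u).2 σ m hm hσ]
      exact Equiv.prod_comp (powCoprime hm.symm) F
  have hz0 : z ≠ 0 := by
    rintro rfl
    exact Finset.prod_ne_zero_iff.mpr (fun u _ => h0 u) (by simpa using hz)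
  have h1 : val M (z : ℂ) < val M (p : ℂ) ^ (h * (Finset.univ : Finset A).card) := by
    rw [← hz, map_prod, pow_mul, ← Finset.prod_const]
    exact Finset.prod_lt_prod_of_nonempty (fun u _ => zero_lt_iff.2 (by simpa using h0 u))
      (fun u _ => hv u) Finset.univ_nonempty
  have h2 := Int.le_of_dvd (abs_pos.2 hz0) ((dvd_abs _ _).2 ((val_intCast_lt_pow_iff hM _ _).1 h1))
  rw [Nat.card_eq_fintype_card]
  refine card_mul_lt_sum_of_prod _ _ (fun u _ => norm_pos_iff.2 (h0 u))
    (pow_pos (Nat.cast_pos.2 hM.1.pos) _) ?_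
  rw [← norm_prod, hz, Complex.norm_intCast, ← pow_mul]
  refine lt_of_lt_of_le (pow_lt_pow_right₀ (Nat.one_lt_cast.2 hM.1.one_lt) (Nat.lt_succ_self _)) ?_
  exact_mod_cast h2

theorem sum_center_le (h : MP p B P e) {χ : IrrCharacter G} (hχ : χ ∈ B) [Fintype (center P)]
    (H : ∀ u : G, Nat.card {z : center P // PF p P e u (z : P)} ≤ 1) :
    ∑ z : center P, ‖sctr p (lblk p P e (z : P)) (z : P) (χ : G → ℂ) (χ : G → ℂ)‖ ≤ Nat.card P := by
  classical
  have := Fintype.ofFinite G
  have := Fintype.ofFinite P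
  have := fun x : G => Fintype.ofFinite (centralizer ({x} : Set G))
  let r : G → ℝ := fun v => (classInner (bcmp p _ v (lblk p P e v) (χ : G → ℂ))
    (bcmp p _ v (lblk p P e v) (χ : G → ℂ))).re
  let w : G → ℝ := fun u => (Nat.card {v : P // PF p P e u v} : ℝ)⁻¹
  have hr : ∀ v, classInner (bcmp p _ v (lblk p P e v) (χ : G → ℂ))
      (bcmp p _ v (lblk p P e v) (χ : G → ℂ)) = r v := fun v =>
    Complex.ext rfl (classInner_self_im _)
  have hr0 : ∀ v, 0 ≤ r v := fun v => classInner_self_re_nonneg _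
  have hw : ∀ u, pfw p P e u = w u := fun u => by simp [pfw, w]
  have h1 := h.classInner_eq_sum_wt (rep := Subtype.val) (fun v : P => v.2) h.sum_pfw
    (blockPart_irr_of_mem hχ) χ.2.isClassFunction
  simp only [hr, hw, χ.2.inner_self] at h1
  have h2 : ∑ u : P, w u * r u = 1 := by exact_mod_cast h1.symm
  have h3 : ∀ z : center P, r (z : P) = ∑ u : P, if PF p P e u (z : P) then w u * r u else 0 := by
    intro z
    have h4 := h.sum_pfw _ z.1.2
    simp only [hw] at h4
    have h5 : ∑ u : P, (if PF p P e u (z : P) then w u else 0) = 1 := by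
      rw [← Complex.ofReal_inj, Complex.ofReal_sum, Complex.ofReal_one, ← h4]
      exact Finset.sum_congr rfl fun u _ => by split_ifs <;> simp
    rw [← one_mul (r _), ← h5, Finset.sum_mul]
    refine Finset.sum_congr rfl fun u _ => ?_
    split_ifs with h6
    · simp only [r, h.inner_bcmp_eq h6 χ.2.isClassFunction χ.2.isClassFunction]
    · rw [zero_mul]
  rw [Finset.sum_congr rfl fun z _ => by
    rw [sctr_eq_bcmp h.hM (h.block z.1.2), hr, h.defect_of_central z.1.2
      (le_centralizer_of_center z), ← Nat.cast_pow, ← h.card, norm_mul, Complex.norm_natCast,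
      Complex.norm_of_nonneg (hr0 _), h3], ← Finset.mul_sum, Finset.sum_comm]
  refine mul_le_of_le_one_right (Nat.cast_nonneg _) ?_
  rw [← h2]
  refine Finset.sum_le_sum fun u _ => ?_
  rw [← Finset.sum_filter, Finset.sum_const, nsmul_eq_mul, ← Fintype.card_subtype,
    ← Nat.card_eq_fintype_card]
  exact mul_le_of_le_one_left (mul_nonneg (by positivity) (hr0 _)) (Nat.cast_le_one.2 (H u))

omit [Finite G] hp in
theorem mem_of_pow_coprime {H : Subgroup G} {a : G} {m n : ℕ}
    (h : m.Coprime n) (hm : a ^ m ∈ H) (hn : a ^ n ∈ H) : a ∈ H := by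
  have := H.mul_mem (H.zpow_mem hm (Nat.gcdA m n)) (H.zpow_mem hn (Nat.gcdB m n))
  rwa [← zpow_natCast, ← zpow_natCast, ← zpow_mul, ← zpow_mul, ← zpow_add, ← Nat.gcd_eq_gcd_ab,
    h.gcd_eq_one, Nat.cast_one, zpow_one] at this

/-- Robinson's bound holds if the normalizer of the defect group acts on its centre as a
`p`-group. -/
theorem rb_of_normalizer (hM : IsPModular p M) (hB : IsPBlock M B) (hD : IsDefectGroup p M B P)
    {χ : IrrCharacter G} (hχ : χ ∈ B) (H : ∀ t ∈ normalizer (P : Set G), ∃ k,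
      t ^ p ^ k ∈ centralizer (P ⊓ centralizer (P : Set G) : Subgroup G)) :
    Rb p (blockHeight p B (χ : G → ℂ)) P := by
  obtain ⟨e, h⟩ := exists_MP hM hB hD
  have := charP_resField hM
  have := Fintype.ofFinite (center P)
  have h0 : Alg.nst ⊤ P e ≤ centralizer (P ⊓ centralizer (P : Set G) : Subgroup G) := by
    intro t ht
    obtain ⟨k, hk⟩ := H t (Alg.nst_le_normalizer _ _ _ ht)
    have h1 : ¬ p ∣ (centralizer (P ⊓ centralizer (P : Set G) : Subgroup G)).relIndex
        (Alg.nst ⊤ P e) := fun h1 => h.hm.not_dvd_relIndex (h1.trans (relIndex_dvd_of_le_left _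
      (sup_le (inf_le_right.trans (centralizer_le inf_le_left))
        (le_centralizer_iff.1 inf_le_right))))
    have : ((centralizer (P ⊓ centralizer (P : Set G) : Subgroup G)).subgroupOf
        (Alg.nst ⊤ P e)).Normal := normal_subgroupOf_of_le_normalizer
      (((le_inf (Alg.nst_le_normalizer _ _ _) ((Alg.nst_le_normalizer _ _ _).trans
        (Alg.normalizer_le_normalizer_centralizer _))).trans
        inf_normalizer_le_normalizer_inf).trans (Alg.normalizer_le_normalizer_centralizer _))
    have h2 := mem_subgroupOf.1 (pow_index_mem ((centralizer (P ⊓ centralizer (P : Set G) :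
      Subgroup G)).subgroupOf (Alg.nst ⊤ P e)) ⟨t, ht⟩)
    exact mem_of_pow_coprime (((Nat.Prime.coprime_iff_not_dvd hp.out).2 h1).pow_left k) hk h2
  have h1 := fun z : center P => h.defect_of_central z.1.2 (le_centralizer_of_center z)
  have h2 := sum_center_le h hχ fun u => by
    refine Finite.card_le_one_iff_subsingleton.2 ⟨fun z w => ?_⟩
    obtain ⟨t, h2, h3⟩ := h.exists_nst_of_central (le_centralizer_of_center z.1)
      (le_centralizer_of_center w.1) (h.pf_trans z.2.symm w.2)
    rw [← h0 h2 _ ⟨z.1.1.2, fun x hx => mem_centralizer_singleton_iff.1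
      (le_centralizer_of_center z.1 hx)⟩, mul_inv_cancel_right] at h3
    exact Subtype.ext (Subtype.ext (Subtype.ext h3))
  have h3 := h.galAt_sctr (P.subtype.comp (center P).subtype)
    (Subtype.val_injective.comp Subtype.val_injective) (fun z => z.1.2) χ.2.isGen χ.2.isGen
  have h4 := fun (z : center P) h2 => regPart_blockPart_sec_ne_zero_of_major h.hM (h.ind z.1.2)
    (h1 z) (inclusion_mem_center rfl (ygen _)) (orderOf_inclusion_eq_pow (h.order z.1.2) rfl _) hχ
      ((sctr_self_eq_zero_iff h.hM (h.block z.1.2) _ _).1 h2)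
  by_cases h5 : blockHeight p B (χ : G → ℂ) = 0
  · rw [h5]; exact rb_zero h.pgroup
  have h6 := (card_mul_pow_lt_of_galAt h.hM h3 h4 fun z =>
    val_sctr_zp_lt_of_major h.hM rfl (h.ind z.1.2) (h1 z) hχ h5 (ygen _)).trans_le h2
  have h7 : Nat.card (center P) * p ^ blockHeight p B (χ : G → ℂ) < Nat.card P := by
    exact_mod_cast h6
  exact rb_of_card h.pgroup h7.le fun _ => h7

theorem rb_of_degree (hM : IsPModular p M) (hB : IsPBlock M B) (hD : IsDefectGroup p M B P)
    {χ : IrrCharacter G} (hχ : χ ∈ B)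
    (h1 : Nat.card (center P) * p ^ (charDegree (χ : G → ℂ)).factorization p ≤
      p ^ (Nat.card G).factorization p)
    (h2 : ¬ IsMulCommutative P → Nat.card (center P) *
      p ^ (charDegree (χ : G → ℂ)).factorization p < p ^ (Nat.card G).factorization p) :
    Rb p (blockHeight p B (χ : G → ℂ)) P := by
  have h3 := factorization_add_blockDefect (p := p) hχ
  have h4 := blockDefect_le p B
  obtain ⟨m, h5⟩ := Nat.exists_eq_add_of_le h4
  have h6 : (charDegree (χ : G → ℂ)).factorization p = blockHeight p B (χ : G → ℂ) + m := by omega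
  rw [h5, h6, pow_add, pow_add, ← card_defectGroup hM hB hD, ← mul_assoc] at h1 h2
  exact rb_of_card (isPGroup_of_isDefectGroup hD)
    (Nat.le_of_mul_le_mul_right h1 (pow_pos hp.out.pos _))
    fun h => Nat.lt_of_mul_lt_mul_right (h2 h)

/-- A character does not vanish on the section of a central element of a defect group. -/
theorem exists_ne_zero_of_center (hM : IsPModular p M) (hB : IsPBlock M B)
    (hD : IsDefectGroup p M B P) {χ : IrrCharacter G} (hχ : χ ∈ B) (z : center P) :
    ∃ c, Commute ((z : P) : G) c ∧ ¬ p ∣ orderOf c ∧ (χ : G → ℂ) (((z : P) : G) * c) ≠ 0 := by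
  obtain ⟨e, h⟩ := exists_MP hM hB hD
  have h1 := bcmp_ne_zero_of_major hM hB h.hm rfl (le_centralizer_of_center z) (h.block z.1.2)
    (h.ple z.1.2) hχ
  by_contra! h2
  refine h1 ?_
  rw [bcmp, ← blockPart_zero (lblk p P e (z : P))]
  congr 1
  funext c
  by_cases h3 : p ∣ orderOf c
  · exact regPart_of_dvd _ h3
  · rw [regPart, if_neg h3]
    exact h2 c (mem_centralizer_singleton_iff.1 c.2).symm (by rwa [orderOf_coe])

end Cfsg.Agent.Spin
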