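import Cfsg.Agent.Spin.PermP
import Cfsg.Agent.Spin.Rob
import Cfsg.Agent.Spin.Chr
import Cfsg.Agent.S4438

/-!
# Robinson's bound for the covers of symmetric and alternating groups, odd primes
-/

set_option linter.unusedSectionVars false

namespace Cfsg.Agent.Spin

open Cfsg Cfsg.Agent.Char Cfsg.Agent.Block Cfsg.Agent.SymCh Subgroup Equiv

variable {G : Type*} [Group G] [Finite G] {M : Ideal AlgInt} {p : ℕ} [hp : Fact p.Prime]
  {B : Set (IrrCharacter G)} {D : Subgroup G} {α : Type*} [Fintype α] [DecidableEq α]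
  {π : G →* Perm α}

theorem eq_one_of_ker {H : Type*} [Group H] {π : G →* H} (hcop : ¬ p ∣ Nat.card π.ker) {c : G}
    (hc : π c = 1) {k : ℕ} (h : c ^ p ^ k = 1) : c = 1 :=
  mem_of_pow_coprime (H := ⊥) (((Nat.Prime.coprime_iff_not_dvd hp.out).2 hcop).pow_left k) h
    (congrArg Subtype.val (pow_card_eq_one' (x := (⟨c, hc⟩ : π.ker))))

theorem commute_of_map {H : Type*} [Group H] {π : G →* H} (hker : π.ker ≤ center G)
    (hcop : ¬ p ∣ Nat.card π.ker) {d g : G} {k : ℕ} (hd : d ^ p ^ k = 1)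
    (h : Commute (π d) (π g)) : Commute d g := by
  have h1 : π (g * d * g⁻¹ * d⁻¹) = 1 := by simp [← h.eq]
  have h2 : Commute (g * d * g⁻¹ * d⁻¹) d := (mem_center_iff.1 (hker h1) d).symm
  have h3 := h2.mul_pow (p ^ k)
  rw [inv_mul_cancel_right, conj_pow, hd, mul_one, mul_one, mul_inv_cancel] at h3
  have h4 := eq_one_of_ker hcop h1 h3.symm
  rw [mul_inv_eq_one, mul_inv_eq_iff_eq_mul] at h4
  exact h4.symm

/-- A `p`-element centralizing a defect group and fixing its orbits lies in it. -/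
theorem mem_of_fix_orbits (hM : IsPModular p M) (hB : IsPBlock M B) (hD : IsDefectGroup p M B D)
    (hker : π.ker ≤ center G) {g : G} (h1 : ∀ d ∈ D, Commute d g)
    (h2 : ∀ j, ∃ d ∈ D, π g j = π d j) (h3 : ∃ k, g ^ p ^ k = 1) : g ∈ D := by
  let K : Subgroup (normalizer (D : Set G)) :=
    { carrier := {t | (∀ d ∈ D, Commute d t.1) ∧ ∀ j, ∃ d ∈ D, π t.1 j = π d j}
      one_mem' := ⟨fun d _ => Commute.one_right d, fun j => ⟨1, D.one_mem, rfl⟩⟩
      mul_mem' := fun {s t} hs ht => ⟨fun d hd => (hs.1 d hd).mul_right (ht.1 d hd), fun j => by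
        obtain ⟨d, hd, e⟩ := ht.2 j
        obtain ⟨d', hd', e'⟩ := hs.2 j
        refine ⟨d * d', D.mul_mem hd hd', ?_⟩
        rw [coe_mul, map_mul, Perm.mul_apply, e, ← Perm.mul_apply, ← map_mul, ← (hs.1 d hd).eq,
          map_mul, map_mul, Perm.mul_apply, Perm.mul_apply, e']⟩
      inv_mem' := fun {t} ht => ⟨fun d hd => (ht.1 d hd).inv_right, fun j => by
        obtain ⟨d, hd, e⟩ := ht.2 (π t.1⁻¹ j)
        refine ⟨d⁻¹, D.inv_mem hd, ?_⟩
        rw [map_inv π d, Perm.eq_inv_iff_eq, coe_inv, ← e, map_inv]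
        simp⟩ }
  have : K.Normal := ⟨fun t ht n => ⟨fun d hd => by
    have := ht.1 _ ((mem_normalizer_iff''.1 n.2 d).1 hd)
    refine (commute_iff_eq _ _).2 ?_
    calc d * (n.1 * t.1 * n.1⁻¹) = n.1 * (n.1⁻¹ * d * n.1 * t.1) * n.1⁻¹ := by group
      _ = _ := by rw [this.eq]; simp [mul_assoc], fun j => by
    obtain ⟨d, hd, e⟩ := ht.2 (π n.1⁻¹ j)
    exact ⟨_, (mem_normalizer_iff.1 n.2 d).1 hd, by
      simp only [coe_mul, map_mul, Perm.mul_apply, coe_inv, e]⟩⟩⟩
  let φ : K →* Perm α := π.comp ((normalizer (D : Set G)).subtype.comp K.subtype)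
  obtain ⟨k, hk⟩ := IsPGroup.iff_card.1 (isPGroup_of_isDefectGroup hD)
  have h4 : IsPGroup p φ.range := by
    rintro ⟨_, t, rfl⟩
    refine ⟨k, Subtype.ext (Equiv.ext fun j => ?_)⟩
    obtain ⟨d, hd, e⟩ := t.2.2 j
    have h5 : ∀ m, (π t.1.1 ^ m) j = (π d ^ m) j := fun m => by
      induction m with
      | zero => rfl
      | succ m ih =>
        rw [pow_succ', Perm.mul_apply, ih, ← Perm.mul_apply,
          ← (((t.2.1 d hd).map π).pow_left m).eq, Perm.mul_apply, e, pow_succ, Perm.mul_apply]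
    refine (h5 _).trans ?_
    rw [← map_pow, ← hk, show d ^ Nat.card D = 1 from
      congrArg Subtype.val (pow_card_eq_one' (x := (⟨d, hd⟩ : D))), map_one]
    rfl
  have := h4.isNilpotent
  have : Group.IsNilpotent K := Subgroup.isNilpotent_of_ker_le_center φ.rangeRestrict fun t ht =>
    mem_center_iff.2 fun s => Subtype.ext (Subtype.ext
      (mem_center_iff.1 (hker (congrArg Subtype.val ht :)) _))
  have hg : g ∈ normalizer (D : Set G) := centralizer_le_normalizer _ fun d hd => (h1 d hd).eq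
  obtain ⟨k, hk⟩ := h3
  obtain ⟨Q, hQ⟩ := (orderOf_eq_pow_iff_isPGroup.1 (((Nat.dvd_prime_pow hp.out).1
    (orderOf_dvd_of_pow_eq_one (x := (⟨⟨g, hg⟩, h1, h2⟩ : K))
      (Subtype.ext (Subtype.ext hk)))).imp fun _ h => h.2)).exists_le_sylow
  have := Q.characteristic_of_normal inferInstance
  have h5 : (Q : Subgroup K).map K.subtype ≤ pCore p _ :=
    le_sSup ⟨inferInstance, Q.isPGroup'.map _⟩
  rw [pCore_normalizer_defectGroup hM hB hD] at h5
  exact h5 ⟨_, hQ (mem_zpowers _), rfl⟩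

theorem exists_center_support (hp2 : p ≠ 2) (hM : IsPModular p M) (hB : IsPBlock M B)
    (hD : IsDefectGroup p M B D) (hker : π.ker ≤ center G) (hcop : ¬ p ∣ Nat.card π.ker)
    (hr : alternatingGroup α ≤ π.range) :
    ∃ z : center D, ∀ d ∈ D, (π d).support ⊆ (π (z : D)).support := by
  have hP := isPGroup_of_isDefectGroup hD
  obtain ⟨z, hz⟩ := Finite.exists_max fun z : center D => (π (z : D)).support.card
  refine ⟨z, fun d hd i hi => by_contra fun h => ?_⟩
  obtain ⟨y, h1, ⟨k, hk⟩, h2, h3, h4⟩ := exists_local (hP.map π) ⟨_, ⟨d, hd, rfl⟩,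
    Perm.mem_support.1 hi⟩
  obtain ⟨g, rfl⟩ : y ∈ π.range := hr (Perm.mem_alternatingGroup.2 (by
    have := congrArg Perm.sign hk
    rw [map_pow, map_one] at this
    refine (Int.units_eq_one_or _).resolve_right fun h5 => ?_
    rw [h5, (hp.out.odd_of_ne_two hp2).pow.neg_one_pow] at this
    exact absurd this (by decide)))
  have h5 : ∀ d ∈ D, Commute d g := fun d hd => by
    obtain ⟨k, hk⟩ := hP ⟨d, hd⟩
    exact commute_of_map hker hcop (congrArg Subtype.val hk) (h2 _ ⟨d, hd, rfl⟩)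
  have h6 : (g ^ Nat.card π.ker) ^ p ^ k = 1 := by
    rw [← pow_mul, mul_comm, pow_mul]
    exact congrArg Subtype.val (pow_card_eq_one' (x := (⟨g ^ p ^ k, by
      rw [MonoidHom.mem_ker, map_pow, hk]⟩ : π.ker)))
  have h7 : g ^ Nat.card π.ker ∈ D := by
    refine mem_of_fix_orbits hM hB hD hker (fun d hd => (h5 d hd).pow_right _) (fun j => ?_) ⟨k, h6⟩
    obtain ⟨_, ⟨d, hd, rfl⟩, e⟩ := h3 j
    refine ⟨d ^ Nat.card π.ker, D.pow_mem hd _, ?_⟩
    rw [map_pow, map_pow]
    induction Nat.card π.ker with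
    | zero => rfl
    | succ m ih =>
      rw [pow_succ', Perm.mul_apply, ih, ← Perm.mul_apply,
        ← (((h5 d hd).map π).pow_left m).eq, Perm.mul_apply, e, pow_succ, Perm.mul_apply]
  have h8 : (π (z : D)).Disjoint (π g ^ Nat.card π.ker) := fun j => by
    refine or_iff_not_imp_right.2 fun h8 => ?_
    obtain ⟨_, ⟨e, he, rfl⟩, rfl⟩ := h4 j fun h9 => h8 (Perm.pow_apply_eq_self_of_apply_eq_self h9 _)
    have h9 : e * (z : D) = (z : D) * e := congrArg Subtype.val (mem_center_iff.1 z.2 ⟨e, he⟩)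
    rw [← Perm.mul_apply, ← map_mul, ← h9, map_mul, Perm.mul_apply, Perm.notMem_support.1 h]
  have h9 := hz (z * ⟨⟨_, h7⟩, mem_center_iff.2 fun d => Subtype.ext ((h5 d d.2).pow_right _).eq⟩)
  simp only [coe_mul, map_mul, map_pow, h8.card_support_mul, add_le_iff_nonpos_right,
    nonpos_iff_eq_zero, Finset.card_eq_zero, Perm.support_eq_empty_iff] at h9
  exact h1 (mem_of_pow_coprime (H := ⊥)
    (((Nat.Prime.coprime_iff_not_dvd hp.out).2 hcop).pow_left k) hk h9)

/-- The form of Robinson's bound in terms of degrees. -/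
def Rz (p n d : ℕ) (D : Type*) [Group D] : Prop :=
  Nat.card (center D) * p ^ d.factorization p ≤ p ^ n.factorization p ∧
    (¬ IsMulCommutative D → Nat.card (center D) * p ^ d.factorization p < p ^ n.factorization p)

theorem rz_of_wp (hp2 : p ≠ 2) (hM : IsPModular p M) (hB : IsPBlock M B)
    (hD : IsDefectGroup p M B D) (hker : π.ker ≤ center G) (hcop : ¬ p ∣ Nat.card π.ker)
    (hr : alternatingGroup α ≤ π.range) {χ : IrrCharacter G} (hχ : χ ∈ B)
    (hw : WP p π (χ : G → ℂ)) : Rz p (Fintype.card α).factorial (charDegree (χ : G → ℂ)) D := by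
  have hP := isPGroup_of_isDefectGroup hD
  obtain ⟨z, hz⟩ := exists_center_support hp2 hM hB hD hker hcop hr
  obtain ⟨c, h1, h2, h3⟩ := exists_ne_zero_of_center hM hB hD hχ z
  obtain ⟨k, hk⟩ := hP z
  have h4 := card_le_sum_filter_parts (p := p) (π (((z : D) : G) * c)) (π (z : D)).support
    fun i hi l hl => by_contra fun h4 => by
      refine Perm.mem_support.1 hi (mem_of_pow_coprime (H := MulAction.stabilizer (Perm α) i)
        (n := p ^ k) (m := l * orderOf c) (((Nat.Prime.coprime_iff_not_dvd hp.out).2 fun h =>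
          (hp.out.dvd_mul.1 h).elim h4 h2).pow_left k).symm ?_ ?_)
      · have h5 := pow_mem (show _ ∈ MulAction.stabilizer (Perm α) i from hl) (orderOf c)
        rwa [← pow_mul, ← map_pow, h1.mul_pow, mul_comm l, pow_mul c, pow_orderOf_eq_one, one_pow,
          mul_one, map_pow, mul_comm] at h5
      · rw [← map_pow, show ((z : D) : G) ^ p ^ k = 1 from congrArg Subtype.val hk, map_one]
        exact one_mem _
  have h5 := hw _ h3
  have h6 : ∀ A : Subgroup D, (∀ a ∈ A, ∀ b ∈ A, Commute a b) → Nat.card A *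
      p ^ (charDegree (χ : G → ℂ)).factorization p ≤
      p ^ (Fintype.card α).factorial.factorization p := fun A hA => by
    obtain ⟨m, hm⟩ := IsPGroup.iff_card.1 (hP.to_subgroup A)
    have h6 := mul_le_card_of_comm (p := p) (π (z : D)).support (A.map (π.comp D.subtype)) m
      (by
        rw [card_map_of_injective ((injective_iff_map_eq_one _).2 fun d hd => ?_), hm]
        obtain ⟨k, hk⟩ := hP d
        exact Subtype.ext (eq_one_of_ker hcop hd (congrArg Subtype.val hk)))
      (by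
        rintro _ ⟨a, ha, rfl⟩ _ ⟨b, hb, rfl⟩
        exact (hA a ha b hb).map _)
      (by rintro _ ⟨a, -, rfl⟩; exact hz _ a.2)
    rw [hm, ← pow_add]
    refine Nat.pow_le_pow_right hp.out.pos (Nat.le_of_mul_le_mul_left ?_ hp.out.pos)
    rw [mul_add]
    omega
  refine ⟨h6 _ fun a _ b hb => mem_center_iff.1 hb a, fun h7 => ?_⟩
  obtain ⟨x, hx⟩ : ∃ x, x ∉ center D := by
    by_contra! h8
    exact h7 (center_eq_top_iff.1 ((eq_top_iff' _).2 h8))
  have h8 := center_le_centralizer (centralizer {x} : Set D)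
  refine lt_of_lt_of_le (Nat.mul_lt_mul_of_pos_right ?_ (pow_pos hp.out.pos _))
    (h6 (centralizer (centralizer {x} : Set D)) fun a ha b hb => hb a
      (mem_centralizer_singleton_iff.2 (ha x (mem_centralizer_singleton_iff.2 rfl)).symm))
  refine (card_le_of_le h8).lt_of_ne fun h => hx ?_
  rw [eq_of_le_of_card_ge h8 h.ge]
  exact fun y hy => mem_centralizer_singleton_iff.1 hy

theorem rz_of_cover (hp2 : p ≠ 2) (hM : IsPModular p M) (hker : π.ker ≤ center G)
    (hcop : ¬ p ∣ Nat.card π.ker) (hr : alternatingGroup α ≤ π.range) {N : Subgroup G} [Fintype N]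
    (hN : N.index = 2) {b : Set (IrrCharacter N)} (hb : IsPBlock M b) {D : Subgroup N}
    (hD : IsDefectGroup p M b D) {χ : IrrCharacter N} (hχ : χ ∈ b) {ψ : IrrCharacter G}
    (h : classInner (fun g : N => (ψ : G → ℂ) g) (χ : N → ℂ) ≠ 0) (hw : WP p π (ψ : G → ℂ)) :
    Rz p (Fintype.card α).factorial (charDegree (χ : N → ℂ)) D := by
  have := Fintype.ofFinite G
  have := normal_of_index_eq_two hN
  obtain ⟨P, hP, h1⟩ := S4438.result p M hM N b hb (D.map N.subtype) (map_subtype_le D)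
    (by rwa [subgroupOf, comap_map_eq_self_of_injective N.subtype_injective]) _
    (isPBlock_blockOf ψ) ⟨ψ, self_mem_blockOf hM ψ, χ, hχ, h⟩
  have h2 : P ≤ N := fun x hx => by
    obtain ⟨k, hk⟩ := isPGroup_of_isDefectGroup hP ⟨x, hx⟩
    refine mem_of_pow_coprime (m := p ^ k) (n := 2)
      (((Nat.coprime_primes hp.out Nat.prime_two).2 hp2).pow_left k) ?_ (hN ▸ pow_index_mem N x)
    rw [show x ^ p ^ k = 1 from congrArg Subtype.val hk]
    exact one_mem _
  rw [inf_of_le_left h2] at h1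
  subst h1
  have h3 := rz_of_wp hp2 hM (isPBlock_blockOf ψ) hP hker hcop hr (self_mem_blockOf hM ψ) hw
  have h4 : (charDegree (ψ : G → ℂ)).factorization p = (charDegree (χ : N → ℂ)).factorization p := by
    have h4 := cast_charDegree ψ.2.isCharacter
    have h5 := cast_charDegree χ.2.isCharacter
    rcases restrict_cases hN ψ.2 χ.2 h with h6 | ⟨-, h6, -⟩
    · rw [Nat.cast_injective (R := ℂ) (h4.trans ((congrFun h6 1).trans h5.symm))]
    · rw [← h5] at h6
      rw [show charDegree (ψ : G → ℂ) = 2 * charDegree (χ : N → ℂ) by exact_mod_cast h4.trans h6,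
        Nat.factorization_mul two_ne_zero (charDegree_ne_zero χ.2), Finsupp.add_apply,
        Nat.factorization_eq_zero_of_not_dvd fun h7 =>
          hp2 ((Nat.prime_dvd_prime_iff_eq hp.out Nat.prime_two).1 h7), zero_add]
  have e := D.equivMapOfInjective _ N.subtype_injective
  rw [Rz, h4, ← Nat.card_congr (centerCongr e).toEquiv] at h3
  exact ⟨h3.1, fun h5 => h3.2 fun h6 => h5 ⟨⟨fun a b => e.injective (by
    rw [map_mul, map_mul, h6.is_comm.comm])⟩⟩⟩

theorem rb_alt_odd [Nontrivial α] (hp2 : p ≠ 2) (hM : IsPModular p M)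
    {B : Set (IrrCharacter (alternatingGroup α))} (hB : IsPBlock M B)
    {D : Subgroup (alternatingGroup α)} (hD : IsDefectGroup p M B D)
    {χ : IrrCharacter (alternatingGroup α)} (hχ : χ ∈ B) :
    Rb p (blockHeight p B (χ : alternatingGroup α → ℂ)) D := by
  obtain ⟨ψ, hψ⟩ := exists_irr_over' _ χ
  have h := rz_of_cover (π := MonoidHom.id _) hp2 hM (by simp) (by simpa using hp.out.one_lt.ne')
    (fun x _ => ⟨x, rfl⟩) alternatingGroup.index_eq_two hB hD hχ hψ (wp_perm ψ)
  rw [Rz, ← Fintype.card_perm, ← Nat.card_eq_fintype_card, ← two_mul_nat_card_alternatingGroup,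
    Nat.factorization_mul two_ne_zero Nat.card_pos.ne',
    Finsupp.add_apply, Nat.factorization_eq_zero_of_not_dvd fun h7 =>
      hp2 ((Nat.prime_dvd_prime_iff_eq hp.out Nat.prime_two).1 h7), zero_add] at h
  exact rb_of_degree hM hB hD hχ h.1 h.2

theorem rb_cov_odd {α : Type} [Fintype α] [DecidableEq α] [Nontrivial α] (hp2 : p ≠ 2)
    (hM : IsPModular p M) {B : Set (IrrCharacter (Cov α))} (hB : IsPBlock M B)
    {D : Subgroup (Cov α)} (hD : IsDefectGroup p M B D) {χ : IrrCharacter (Cov α)} (hχ : χ ∈ B) :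
    Rb p (blockHeight p B (χ : Cov α → ℂ)) D := by
  have h0 : ¬ p ∣ 2 := fun h => hp2 ((Nat.prime_dvd_prime_iff_eq hp.out Nat.prime_two).1 h)
  have h : Rz p (Fintype.card α).factorial (charDegree (χ : Cov α → ℂ)) D := by
    rcases wp_cases hp2 χ with h | ⟨ψ, h1, h2⟩
    · have e : ((proj α).comp (Cov α).subtype).ker = (projA α).ker := by
        exact Subgroup.ext fun g => (Subtype.ext_iff (a1 := projA α g) (a2 := 1)).symm
      refine rz_of_wp hp2 hM hB hD (e ▸ ker_projA_le) (by rwa [e, card_ker_projA])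
        (fun x hx => ?_) hχ h
      obtain ⟨g, hg⟩ := projA_surjective ⟨x, hx⟩
      exact ⟨g, congrArg Subtype.val hg⟩
    · exact rz_of_cover hp2 hM ker_proj_le (by rwa [card_ker_proj])
        (fun x _ => proj_surjective x) index_Cov hB hD hχ h1 h2
  have h1 := (Cov α).card_mul_index
  rw [index_Cov, card_Pin, mul_comm, Nat.mul_right_inj two_ne_zero] at h1
  rw [Rz, ← h1] at h
  exact rb_of_degree hM hB hD hχ h.1 h.2

end Cfsg.Agent.Spin
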