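import Cfsg.Agent.Spin.Inv
import Cfsg.Agent.Spin.Odd
import Cfsg.Agent.Sym.Alt
import Cfsg.Agent.Block.Dominate

/-!
# Robinson's bound for the covers of alternating groups, the prime two
-/

set_option linter.unusedSectionVars false

namespace Cfsg.Agent.Spin

open Cfsg Cfsg.Agent.Char Cfsg.Agent.Block Cfsg.Agent.SymCh Subgroup Equiv Finset

variable {G : Type*} [Group G] [Finite G] {M : Ideal AlgInt} {B : Set (IrrCharacter G)}
  {D : Subgroup G} {α : Type*} [Fintype α] [DecidableEq α]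

omit [Finite G] in
theorem commute_pow_of_center {u x : G} (h : u * x * u⁻¹ * x⁻¹ ∈ center G) {m : ℕ}
    (hm : (u * x * u⁻¹ * x⁻¹) ^ m = 1) : x * u ^ m = u ^ m * x := by
  have h1 : Commute (u * x * u⁻¹ * x⁻¹) (x * u * x⁻¹) := (mem_center_iff.1 h _).symm
  have h2 := h1.mul_pow m
  rw [hm, one_mul, conj_pow, show u * x * u⁻¹ * x⁻¹ * (x * u * x⁻¹) = u by group] at h2
  rw [← mul_inv_eq_iff_eq_mul, ← h2]

theorem np_of_block {b : Set (IrrCharacter (alternatingGroup α))}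
    {E : Subgroup (alternatingGroup α)} (hM : IsPModular 2 M) (hb : IsPBlock M b)
    (hE : IsDefectGroup 2 M b E) : NP E ∨ Nat.card E ≤ 4 ∧ ∀ x ∈ E, #x.1.support ≤ 7 := by
  obtain ⟨B, P, χ, β, hB, -, hP, h1, hχ, hβ⟩ := exists_cover_data le_rfl hM hb hE
  obtain ⟨T⟩ : Nonempty (Sylow 2 (Perm (Fin (2 * wt 2 β)))) := inferInstance
  have hT := T.card_eq_multiplicity
  rw [Nat.card_perm, Nat.card_fin] at hT
  obtain ⟨e, he⟩ := hβ.exists_range_eq le_rfl hM hB hP hχ (Fintype.card_fin _).le hT _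
    (subtype_injective _)
  refine np_or_small (isPGroup_of_isDefectGroup hE) (S := univ.map e) (fun x hx i hi => ?_)
    (m := 2 * wt 2 β) (by simp) ?_
  · obtain ⟨k, hk⟩ : x.1 ∈ _ := he.ge (h1.ge ⟨x, hx, rfl⟩).1
    by_contra h
    refine Perm.mem_support.1 hi ?_
    rw [← hk]
    exact Perm.viaEmbedding_apply_of_notMem _ _ _ (by simpa using h)
  · rw [← hβ.blockDefect_eq le_rfl hM hB hχ, ← card_defectGroup hM hB hP, card_eq_card_inf h1]
    by_cases h : P ≤ alternatingGroup α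
    · rw [inf_of_le_left h]; omega
    · rcases subsingleton_or_nontrivial α with h2 | h2
      · exact (h fun x _ => Subsingleton.elim 1 x ▸ one_mem _).elim
      · exact (two_mul_card_inf alternatingGroup.index_eq_two h).ge

theorem rb_two (σ : G →* alternatingGroup α) (hs : Function.Surjective σ)
    (hc : σ.ker ≤ center G) (hd : σ.ker ≤ commutator G) (hM : IsPModular 2 M)
    (hB : IsPBlock M B) (hD : IsDefectGroup 2 M B D) {χ : IrrCharacter G} (hχ : χ ∈ B)
    (h : NP (D.map σ) ∨ Nat.card (D.map σ) ≤ 4 ∧ ∀ x ∈ D.map σ, #x.1.support ≤ 7) :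
    Rb 2 (blockHeight 2 B (χ : G → ℂ)) D := by
  have hP := isPGroup_of_isDefectGroup hD
  rcases h with h | ⟨h1, h2⟩
  · obtain ⟨k, hk⟩ := IsPGroup.iff_card.1 hP
    refine rb_of_normalizer hM hB hD hχ fun t ht => ⟨k + 1, fun z hz => ?_⟩
    obtain ⟨_, ⟨d, hd, rfl⟩, h1⟩ := h (σ t) (le_normalizer_map σ ⟨t, ht, rfl⟩)
    have h2 : σ (t ^ 2 * z * (t ^ 2)⁻¹ * z⁻¹) = 1 := by
      rw [map_mul, map_mul, map_mul, map_inv, map_pow, h1 _ ⟨z, hz.1, rfl⟩, ← map_mul, hz.2 d hd]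
      simp
    have h3 : z ^ 2 ^ k = 1 := hk ▸ congrArg Subtype.val (pow_card_eq_one' (x := (⟨z, hz.1⟩ : D)))
    rw [pow_succ', pow_mul]
    refine commute_pow_of_center (hc h2) ?_
    have h4 := (show Commute _ z from (mem_center_iff.1 (hc h2) z).symm).mul_pow (2 ^ k)
    rw [inv_mul_cancel_right, conj_pow, h3, mul_one, mul_one, mul_inv_cancel] at h4
    exact h4.symm
  by_cases h3 : ∃ z, σ z = 1 ∧ z ≠ 1 ∧ z * z = 1
  · obtain ⟨w, h3, h4, h5⟩ := h3
    obtain ⟨k, hk⟩ := IsPGroup.iff_card.1 hP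
    refine rb_of_normalizer hM hB hD hχ fun t ht => ⟨k, fun z hz => ?_⟩
    have h6 : z ^ 2 ^ k = 1 := hk ▸ congrArg Subtype.val (pow_card_eq_one' (x := (⟨z, hz.1⟩ : D)))
    clear hk
    induction k generalizing z with
    | zero => simp [show z = 1 by simpa using h6]
    | succ k ih =>
      have h7 := ih (z ^ 2) (pow_mem hz 2) (by rwa [← pow_mul, ← pow_succ'])
      have h8 := (mem_normalizer_iff.1 (pow_mem ht (2 ^ k)) z).1 hz.1
      have h9 : t ^ 2 ^ k * z * (t ^ 2 ^ k)⁻¹ * z⁻¹ * (t ^ 2 ^ k * z * (t ^ 2 ^ k)⁻¹ * z⁻¹) = 1 := by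
        rw [← pow_two, (show Commute _ z from hz.2 _ h8).inv_right.mul_pow, conj_pow, ← h7]
        simp
      rw [pow_succ, pow_mul]
      exact commute_pow_of_center (hc (mem_ker_of_sq σ hs hc hd h3 h4 h5 h9
        (h2 _ ⟨_, D.mul_mem h8 (D.inv_mem hz.1), rfl⟩))) ((pow_two _).trans h9)
  · refine rb_of_small hM hB hD hχ (Or.inl (le_of_eq_of_le ?_ h1))
    rw [← D.range_subtype, ← MonoidHom.range_comp, D.range_subtype]
    refine Nat.card_congr (MonoidHom.ofInjective ((injective_iff_map_eq_one _).2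
      fun x hx => ?_)).toEquiv
    obtain ⟨k, hk⟩ := hP x
    refine Subtype.ext (eq_one_of_ker (p := 2) (fun h4 => h3 ?_) hx (congrArg Subtype.val hk))
    obtain ⟨z, hz⟩ := exists_prime_orderOf_dvd_card' 2 h4
    refine ⟨z, z.2, fun h5 => ?_, ?_⟩
    · simp [show z = 1 from Subtype.ext h5] at hz
    · rw [← pow_two, ← hz, ← orderOf_coe, pow_orderOf_eq_one]

end Cfsg.Agent.Spin
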