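import Cfsg.Agent.Sym.Chi

/-!
# Vertex operators for Schur's `Q`-functions

Functions on multisets of cycle lengths, with the operators `Φ a` satisfying the Clifford relations.
-/

namespace Cfsg.Agent.Spin

open Finset Function Cfsg.Agent.SymCh

/-- Functions of the cycle lengths. -/
abbrev Fm := Multiset ℕ → ℂ

/-- Weight of one part. -/
noncomputable def wo (c : ℂ) (r : ℕ) : ℂ := if Odd r then c else 0

/-- Weight of a multiset of parts. -/
noncomputable def wO (c : ℂ) (ρ : Multiset ℕ) : ℂ := (ρ.map (wo c)).prod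

@[simp] theorem wO_zero (c : ℂ) : wO c 0 = 1 := by simp [wO]

theorem wO_cons (c : ℂ) (r : ℕ) (ρ : Multiset ℕ) : wO c (r ::ₘ ρ) = wo c r * wO c ρ := by
  simp [wO]

theorem wO_add (c : ℂ) (ρ σ : Multiset ℕ) : wO c (ρ + σ) = wO c ρ * wO c σ := by simp [wO]

theorem wO_mul (c d : ℂ) (ρ : Multiset ℕ) : wO c ρ * wO d ρ = wO (c * d) ρ := by
  rw [wO, wO, wO, ← Multiset.prod_map_mul]
  congr 1
  refine Multiset.map_congr rfl fun r _ => ?_
  unfold wo
  split_ifs <;> simp

theorem wO_neg (c : ℂ) (ρ : Multiset ℕ) : wO (-c) ρ = (-1) ^ ρ.sum * wO c ρ := by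
  induction ρ using Multiset.induction_on with
  | empty => simp
  | cons r ρ ih =>
    rw [wO_cons, wO_cons, ih, Multiset.sum_cons, pow_add, wo, wo]
    split_ifs with h
    · rw [h.neg_one_pow]; ring
    · simp

theorem wO_of_odd (c : ℂ) {ρ : Multiset ℕ} (h : ∀ r ∈ ρ, Odd r) : wO c ρ = c ^ ρ.card := by
  rw [wO, Multiset.map_congr rfl (f := wo c) (g := fun _ => c) fun r hr => if_pos (h r hr)]
  simp

theorem wO_of_not_odd (c : ℂ) {ρ : Multiset ℕ} (h : ¬ ∀ r ∈ ρ, Odd r) : wO c ρ = 0 := by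
  push Not at h
  obtain ⟨r, hr, h⟩ := h
  exact Multiset.prod_eq_zero (Multiset.mem_map.2 ⟨r, hr, if_neg h⟩)

/-- Sum over the ways to split a multiset. -/
noncomputable def ad (ρ : Multiset ℕ) (H : Multiset ℕ → Fm) : ℂ :=
  (ρ.antidiagonal.map fun x => H x.1 x.2).sum

theorem ad_zero (H : Multiset ℕ → Fm) : ad 0 H = H 0 0 := by simp [ad]

theorem ad_cons (r : ℕ) (ρ : Multiset ℕ) (H : Multiset ℕ → Fm) :
    ad (r ::ₘ ρ) H = (ad ρ fun σ τ => H σ (r ::ₘ τ)) + ad ρ fun σ τ => H (r ::ₘ σ) τ := by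
  simp [ad]

theorem ad_congr {ρ : Multiset ℕ} {H H' : Multiset ℕ → Fm}
    (h : ∀ σ τ, σ + τ = ρ → H σ τ = H' σ τ) : ad ρ H = ad ρ H' :=
  congrArg Multiset.sum (Multiset.map_congr rfl fun _ hx => h _ _ (Multiset.mem_antidiagonal.1 hx))

theorem ad_eq_zero {ρ : Multiset ℕ} {H : Multiset ℕ → Fm}
    (h : ∀ σ τ, σ + τ = ρ → H σ τ = 0) : ad ρ H = 0 := by
  rw [ad_congr (H' := fun _ _ => 0) h]; simp [ad]

theorem ad_add (ρ : Multiset ℕ) (H H' : Multiset ℕ → Fm) :
    (ad ρ fun σ τ => H σ τ + H' σ τ) = ad ρ H + ad ρ H' := by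
  simp [ad]

theorem mul_ad (c : ℂ) (ρ : Multiset ℕ) (H : Multiset ℕ → Fm) :
    c * ad ρ H = ad ρ fun σ τ => c * H σ τ := by
  simp [ad, Multiset.sum_map_mul_left]

theorem ad_sum {ι : Type*} (s : Finset ι) (ρ : Multiset ℕ) (H : ι → Multiset ℕ → Fm) :
    (ad ρ fun σ τ => ∑ i ∈ s, H i σ τ) = ∑ i ∈ s, ad ρ (H i) := by
  classical
  induction s using Finset.induction_on with
  | empty => simp [ad]
  | insert i s hi ih => simp only [sum_insert hi, ad_add, ih]

theorem ad_wO (c d : ℂ) (ρ : Multiset ℕ) : (ad ρ fun σ τ => wO c σ * wO d τ) = wO (c + d) ρ := by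
  induction ρ using Multiset.induction_on with
  | empty => simp [ad_zero]
  | cons r ρ ih =>
    simp only [ad_cons, wO_cons, mul_left_comm _ (wo d r), mul_assoc, ← mul_ad, ih]
    unfold wo
    split_ifs <;> ring

theorem avg_congr {n : ℕ} {F G : Fm} (h : ∀ ρ, (∀ r ∈ ρ, 0 < r) → ρ.sum = n → F ρ = G ρ) :
    avg n F = avg n G :=
  sum_congr rfl fun ρ hρ => by rw [h ρ (mem_Pt.1 hρ).1 (mem_Pt.1 hρ).2]

theorem avg_add (n : ℕ) (F G : Fm) : (avg n fun ρ => F ρ + G ρ) = avg n F + avg n G := by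
  simp only [avg, add_div, sum_add_distrib]

theorem mul_avg (c : ℂ) (n : ℕ) (F : Fm) : c * avg n F = avg n fun ρ => c * F ρ := by
  simp only [avg, mul_sum, mul_div_assoc]

theorem avg_zero' (n : ℕ) : (avg n fun _ => 0) = 0 := by simp [avg]

theorem avg_comm (m n : ℕ) (H : Multiset ℕ → Fm) :
    (avg m fun σ => avg n (H σ)) = avg n fun τ => avg m fun σ => H σ τ := by
  simp only [avg, sum_div]
  rw [sum_comm]
  exact sum_congr rfl fun _ _ => sum_congr rfl fun _ _ => div_right_comm _ _ _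

theorem sum_antidiagonal_Icc (n : ℕ) (G : ℕ → ℕ → ℕ → ℂ) :
    ∑ x ∈ antidiagonal n, ∑ r ∈ Icc 1 x.1, G r (x.1 - r) x.2 =
      ∑ r ∈ Icc 1 n, ∑ y ∈ antidiagonal (n - r), G r y.1 y.2 := by
  rw [sum_sigma', sum_sigma']
  refine sum_bij' (fun x _ => ⟨x.2, (x.1.1 - x.2, x.1.2)⟩) (fun y _ => ⟨(y.2.1 + y.1, y.2.2), y.1⟩)
    ?_ ?_ ?_ ?_ ?_
  · rintro ⟨⟨a, b⟩, r⟩ h
    simp only [mem_sigma, HasAntidiagonal.mem_antidiagonal, mem_Icc] at h ⊢
    omega
  · rintro ⟨r, a, b⟩ h
    simp only [mem_sigma, HasAntidiagonal.mem_antidiagonal, mem_Icc] at h ⊢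
    omega
  · rintro ⟨⟨a, b⟩, r⟩ h
    simp only [mem_sigma, HasAntidiagonal.mem_antidiagonal, mem_Icc] at h
    simp [Nat.sub_add_cancel h.2.2]
  · rintro ⟨r, a, b⟩ h
    simp
  · rintro ⟨⟨a, b⟩, r⟩ h
    rfl

/-- The average is multiplicative. -/
theorem avg_ad (n : ℕ) : ∀ H : Multiset ℕ → Fm, (avg n fun ρ => ad ρ H) =
    ∑ x ∈ antidiagonal n, avg x.1 fun σ => avg x.2 (H σ) := by
  induction n using Nat.strong_induction_on with
  | _ n ih =>
  intro H
  rcases n.eq_zero_or_pos with rfl | hn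
  · simp [avg_zero, ad_zero]
  apply mul_left_cancel₀ (Nat.cast_ne_zero.2 hn.ne' : (n : ℂ) ≠ 0)
  have h1 : ∀ x ∈ antidiagonal n, (n : ℂ) * (avg x.1 fun σ => avg x.2 (H σ)) =
      ∑ r ∈ Icc 1 x.1, (avg (x.1 - r) fun σ => avg x.2 (H (r ::ₘ σ))) +
      ∑ r ∈ Icc 1 x.2, avg x.1 fun σ => avg (x.2 - r) fun τ => H σ (r ::ₘ τ) := by
    intro x hx
    rw [← HasAntidiagonal.mem_antidiagonal.1 hx, Nat.cast_add, add_mul, avg_rec, mul_avg, ← avg_sum]
    simp only [avg_rec]
  rw [avg_rec, mul_sum, sum_congr rfl h1, sum_add_distrib,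
    sum_antidiagonal_Icc n fun r a b => avg a fun σ => avg b (H (r ::ₘ σ)),
    ← Finset.Nat.sum_antidiagonal_swap]
  simp only [Prod.fst_swap, Prod.snd_swap]
  rw [sum_antidiagonal_Icc n fun r b a => avg a fun σ =>
      avg b fun τ => H σ (r ::ₘ τ), ← sum_add_distrib]
  refine sum_congr rfl fun r hr => ?_
  have hr' := mem_Icc.1 hr
  simp only [ad_cons]
  rw [avg_add, ih _ (by omega), ih _ (by omega), add_comm, add_right_inj,
    ← Finset.Nat.sum_antidiagonal_swap]
  rfl

/-- Average over the partitions of an integer. -/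
noncomputable def av (k : ℤ) (F : Fm) : ℂ := if 0 ≤ k then avg k.toNat F else 0

theorem av_nat (k : ℕ) (F : Fm) : av k F = avg k F := by simp [av]

theorem av_neg {k : ℤ} (hk : k < 0) (F : Fm) : av k F = 0 := if_neg (by omega)

theorem avg_wO (i : ℕ) : avg i (wO (-2)) = if i = 0 then 1 else 2 * (-1) ^ i := by
  have key : ∀ i : ℕ, ∑ r ∈ Icc 1 i, wo (-2) r * (if i - r = 0 then 1 else 2 * (-1) ^ (i - r)) =
      (i : ℂ) * (2 * (-1) ^ i) := by
    intro i
    have h1 : ∀ r ∈ Icc 1 i, wo (-2) r * (if i - r = 0 then 1 else 2 * (-1) ^ (i - r)) =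
        (-1) ^ i * ((if Odd r then 4 else 0) - if r = i then (if Odd r then 2 else 0) else 0) := by
      intro r hr
      obtain ⟨j, rfl⟩ := Nat.exists_eq_add_of_le (mem_Icc.1 hr).2
      unfold wo
      by_cases h : Odd r
      · rw [Nat.add_sub_cancel_left, pow_add, h.neg_one_pow]
        by_cases hj : j = 0 <;> simp [h, hj] <;> ring
      · simp [h]
    have h2 : ∀ i : ℕ, ∑ r ∈ Icc 1 i, (if Odd r then 4 else 0 : ℂ) =
        2 * i + if Odd i then 2 else 0 := by
      intro i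
      induction i with
      | zero => simp
      | succ i ih =>
        rw [sum_Icc_succ_top (by omega), ih]
        rcases Nat.even_or_odd i with h | h
        · simp [Nat.not_odd_iff_even.2 h, h.add_one]; ring
        · simp [h, Nat.not_odd_iff_even.2 h.add_one]; ring
    rw [sum_congr rfl h1, ← mul_sum, sum_sub_distrib, h2, sum_ite_eq']
    rcases i.eq_zero_or_pos with rfl | hi
    · simp
    · rw [if_pos (mem_Icc.2 ⟨hi, le_rfl⟩)]; ring
  induction i using Nat.strong_induction_on with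
  | _ i ih =>
  rcases i.eq_zero_or_pos with rfl | hi
  · simp [avg_zero]
  apply mul_left_cancel₀ (Nat.cast_ne_zero.2 hi.ne' : (i : ℂ) ≠ 0)
  rw [avg_rec, if_neg hi.ne', ← key]
  refine sum_congr rfl fun r hr => ?_
  have hr' := mem_Icc.1 hr
  simp only [wO_cons]
  rw [← mul_avg, ih _ (by omega)]

theorem av_wO_add (j : ℤ) : av j (wO (-2)) + av (-j) (wO (-2)) = 2 * (-1) ^ j := by
  obtain ⟨i, rfl | rfl⟩ := j.eq_nat_or_neg
  · rcases i.eq_zero_or_pos with rfl | hi
    · simp [av, avg_zero]; norm_num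
    · rw [av_nat, av_neg (by omega), avg_wO, if_neg hi.ne']; simp
  · rcases i.eq_zero_or_pos with rfl | hi
    · simp [av, avg_zero]; norm_num
    · rw [neg_neg, av_nat, av_neg (by omega), avg_wO, if_neg hi.ne', zero_add, zpow_neg,
        zpow_natCast, ← inv_pow, inv_neg_one]

/-- Removing a part. -/
def J (r : ℕ) : Fm →ₗ[ℂ] Fm where
  toFun F ρ := F (r ::ₘ ρ)
  map_add' _ _ := rfl
  map_smul' _ _ := rfl

theorem J_apply (r : ℕ) (F : Fm) (ρ : Multiset ℕ) : J r F ρ = F (r ::ₘ ρ) := rfl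

/-- The annihilation half of the vertex operator. -/
noncomputable def S (k : ℤ) : Fm →ₗ[ℂ] Fm where
  toFun F τ := av k fun σ => wO (-2) σ * F (σ + τ)
  map_add' F G := by
    funext τ
    simp only [av, Pi.add_apply, mul_add, avg_add]
    split_ifs <;> simp
  map_smul' c F := by
    funext τ
    simp only [av, Pi.smul_apply, smul_eq_mul, RingHom.id_apply, mul_left_comm _ c, ← mul_avg]
    split_ifs <;> simp

theorem S_apply (k : ℤ) (F : Fm) (τ : Multiset ℕ) :
    S k F τ = av k fun σ => wO (-2) σ * F (σ + τ) := rfl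

theorem S_nat (k : ℕ) (F : Fm) (τ : Multiset ℕ) :
    S k F τ = avg k fun σ => wO (-2) σ * F (σ + τ) := by rw [S_apply, av_nat]

theorem S_neg {k : ℤ} (hk : k < 0) (F : Fm) : S k F = 0 := funext fun _ => av_neg hk _

theorem S_zero (F : Fm) : S 0 F = F := by
  funext τ
  simpa [avg_zero] using S_nat 0 F τ

theorem J_S (r : ℕ) (k : ℤ) (F : Fm) : J r (S k F) = S k (J r F) := by
  funext τ
  simp only [J_apply, S_apply, Multiset.add_cons]

theorem S_comm (i j : ℤ) (F : Fm) : S i (S j F) = S j (S i F) := by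
  rcases lt_or_ge i 0 with hi | hi
  · simp [S_neg hi]
  rcases lt_or_ge j 0 with hj | hj
  · simp [S_neg hj]
  lift i to ℕ using hi
  lift j to ℕ using hj
  funext τ
  simp only [S_nat, mul_avg]
  rw [avg_comm]
  exact avg_congr fun _ _ _ => avg_congr fun _ _ _ => by rw [mul_left_comm, add_left_comm]

theorem sum_S_S (N : ℕ) (F : Fm) :
    ∑ x ∈ antidiagonal N, (-1) ^ x.1 * S x.1 (S x.2 F) 0 = if N = 0 then F 0 else 0 := by
  have h1 : ∀ x ∈ antidiagonal N, (-1) ^ x.1 * S x.1 (S x.2 F) 0 =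
      avg x.1 fun σ => avg x.2 fun τ => F (σ + τ) * (wO 2 σ * wO (-2) τ) := by
    intro x _
    simp only [S_nat, mul_avg]
    refine avg_congr fun σ _ hσ => avg_congr fun τ _ _ => ?_
    have := wO_neg (-2) σ
    rw [neg_neg, hσ] at this
    rw [this, add_zero, add_comm τ]; ring
  rw [sum_congr rfl h1, ← avg_ad]
  rw [avg_congr (G := fun ρ => F ρ * wO 0 ρ) fun ρ _ _ => by
    rw [ad_congr (H' := fun σ τ => F ρ * (wO 2 σ * wO (-2) τ)) fun σ τ h => by rw [h], ← mul_ad,
      ad_wO, add_neg_cancel]]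
  split_ifs with h
  · simp [h, avg_zero]
  · refine (avg_congr fun ρ _ hρ => ?_).trans (avg_zero' N)
    induction ρ using Multiset.induction_on with
    | empty => exact (h hρ.symm).elim
    | cons r ρ _ => simp [wO_cons, wo]

/-- The creation half of the vertex operators. -/
noncomputable def V (f : ℕ → Fm) : Fm := fun ρ => ad ρ fun σ τ => wO 1 σ * f σ.sum τ

theorem V_zero (f : ℕ → Fm) : V f 0 = f 0 0 := by simp [V, ad_zero]

theorem J_V (r : ℕ) (f : ℕ → Fm) :
    J r (V f) = (V fun i => J r (f i)) + wo 1 r • V fun i => f (i + r) := by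
  funext ρ
  simp only [J_apply, V, ad_cons, Pi.add_apply, Pi.smul_apply, smul_eq_mul, mul_ad, wO_cons,
    Multiset.sum_cons, mul_assoc, add_comm r]

theorem V_eq_zero : (V fun _ => 0) = 0 := funext fun _ => ad_eq_zero fun _ _ _ => mul_zero _

theorem S_V (k : ℕ) (τ : Multiset ℕ) : ∀ f : ℕ → Fm, S k (V f) τ =
    ∑ x ∈ antidiagonal k, avg x.1 (wO (-2)) * V (fun i => S x.2 (f (i + x.1))) τ := by
  induction τ using Multiset.induction_on with
  | empty =>
    intro f
    simp only [S_nat, add_zero, V, mul_ad]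
    rw [avg_congr (G := fun ρ => ad ρ fun σ τ => wO (-2) σ * (wO (-2) τ * f σ.sum τ))
      fun ρ _ _ => ad_congr fun σ τ h => by
        rw [← h, wO_add, mul_assoc, mul_left_comm (wO _ τ), ← mul_assoc, wO_mul, mul_one],
      avg_ad]
    refine sum_congr rfl fun x _ => ?_
    rw [ad_zero, mul_comm, mul_avg]
    refine avg_congr fun σ _ hσ => ?_
    simp [hσ, ← mul_avg, mul_comm]
  | cons r τ ih =>
    intro f
    rw [← J_apply r (S _ _), J_S, J_V, map_add, map_smul, Pi.add_apply, Pi.smul_apply, ih, ih, smul_eq_mul,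
      mul_sum, ← sum_add_distrib]
    refine sum_congr rfl fun x _ => ?_
    rw [← J_apply r (V _), J_V]
    simp only [J_S, Pi.add_apply, Pi.smul_apply, smul_eq_mul, add_right_comm _ r]
    ring

/-- The vertex operators. -/
noncomputable def Φ (a : ℤ) : Fm →ₗ[ℂ] Fm where
  toFun F := V fun i => S (i - a) F
  map_add' F G := by
    funext ρ
    simp only [V, map_add, Pi.add_apply, mul_add, ad_add]
  map_smul' c F := by
    funext ρ
    simp only [V, map_smul, Pi.smul_apply, smul_eq_mul, RingHom.id_apply, mul_ad, mul_left_comm c]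

theorem Φ_apply (a : ℤ) (F : Fm) : Φ a F = V fun i => S (i - a) F := rfl

theorem J_Φ (r : ℕ) (a : ℤ) (F : Fm) : J r (Φ a F) = Φ a (J r F) + wo 1 r • Φ (a - r) F := by
  simp only [Φ_apply, J_V, J_S, Nat.cast_add, sub_sub_eq_add_sub]

theorem Φ_Φ_zero (a b : ℤ) (F : Fm) {R : ℕ} (hR : -a < R) : Φ a (Φ b F) 0 =
    ∑ i ∈ range R, av (-a - i) (wO (-2)) * S i (S (-a - b - i) F) 0 := by
  rw [Φ_apply, V_zero, Nat.cast_zero, zero_sub]
  rcases lt_or_ge (-a) 0 with h | h
  · rw [S_neg h, sum_eq_zero fun i _ => by rw [av_neg (by omega), zero_mul]]; rfl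
  obtain ⟨k, hk⟩ := Int.eq_ofNat_of_zero_le h
  rw [hk, Φ_apply, S_V, ← Finset.Nat.sum_antidiagonal_swap,
    Finset.Nat.sum_antidiagonal_eq_sum_range_succ_mk]
  refine (sum_congr rfl fun i hi => ?_).trans (sum_subset (s₁ := range (k + 1))
    (range_subset_range.2 (by omega)) fun i _ hi => by rw [av_neg (by simp at hi; omega), zero_mul])
  have hi' : i ≤ k := by simpa [Nat.lt_succ_iff] using hi
  simp only [Prod.fst_swap, Prod.snd_swap, V_zero, zero_add]
  rw [← av_nat, Nat.cast_sub hi', sub_right_comm]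

/-- The Clifford relations. -/
theorem Φ_anti (ρ : Multiset ℕ) : ∀ (a b : ℤ) (F : Fm), Φ a (Φ b F) ρ + Φ b (Φ a F) ρ =
    if a + b = 0 then 2 * (-1) ^ a * F ρ else 0 := by
  induction ρ using Multiset.induction_on with
  | empty =>
    intro a b F
    have h0 : ∀ a b : ℤ, ∀ N : ℕ, -a - b < N → Φ a (Φ b F) 0 =
        ∑ i ∈ range N, av (-a - i) (wO (-2)) * S i (S (-a - b - i) F) 0 := by
      intro a b N hN
      rw [Φ_Φ_zero a b F (R := N + a.natAbs + 1) (by omega)]
      refine (sum_subset (range_subset_range.2 (by omega)) fun i _ hi => ?_).symm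
      rw [S_neg (k := _ - _) (by simp at hi; omega), map_zero, Pi.zero_apply, mul_zero]
    rcases lt_or_ge (-a - b) 0 with h | h
    · rw [h0 a b 0 h, h0 b a 0 (by omega), if_neg (by omega)]; simp
    obtain ⟨N, hN⟩ := Int.eq_ofNat_of_zero_le h
    have h1 := sum_S_S N F
    rw [Finset.Nat.sum_antidiagonal_eq_sum_range_succ_mk] at h1
    rw [h0 a b (N + 1) (by omega), h0 b a (N + 1) (by omega), ← sum_flip (fun i =>
      av (-b - i) (wO (-2)) * S i (S (-b - a - i) F) 0), ← sum_add_distrib]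
    trans 2 * (-1) ^ a * if N = 0 then F 0 else 0
    · rw [← h1, mul_sum]
      refine sum_congr rfl fun i hi => ?_
      have hi' : i ≤ N := by simpa [Nat.lt_succ_iff] using hi
      rw [Nat.cast_sub hi', S_comm (N - i), hN, show -b - a - (N - i) = i by omega, ← add_mul,
        show -b - (N - i) = -(-a - i) by omega, av_wO_add, show -a - i = -(a + i) by ring, zpow_neg,
        ← inv_zpow, inv_neg_one, zpow_add₀ (by norm_num), zpow_natCast]
      ring
    · by_cases h2 : a + b = 0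
      · rw [if_pos h2, if_pos (by omega)]
      · rw [if_neg h2, if_neg (by omega), mul_zero]
  | cons r ρ ih =>
    intro a b F
    have h1 := ih a b (J r F)
    have h2 := ih a (b - r) F
    have h3 := ih (a - r) b F
    simp only [← J_apply r, J_Φ, map_add, map_smul, Pi.add_apply, Pi.smul_apply, smul_eq_mul]
    have h4 : wo 1 r * ((if a + (b - r) = 0 then 2 * (-1) ^ a * F ρ else 0) +
        if a - r + b = 0 then 2 * (-1) ^ (a - r) * F ρ else 0) = 0 := by
      unfold wo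
      split_ifs with h h' h'' <;> try first | omega | simp
      rw [zpow_sub₀ (by norm_num), zpow_natCast, h.neg_one_pow]; ring
    linear_combination h1 + wo 1 r * h2 + wo 1 r * h3 + h4

end Cfsg.Agent.Spin
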