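import Mathlib.GroupTheory.Sylow
import Cfsg.Agent.Sym.Cyc

/-!
# `p`-groups of permutations: supports, local central elements
-/

namespace Cfsg.Agent.Spin

open Equiv Finset Cfsg.Agent.SymCh MulAction

variable {α : Type*} [Fintype α] [DecidableEq α] {p : ℕ} [hp : Fact p.Prime]

theorem card_le_sum_filter_parts (g : Perm α) (S : Finset α)
    (h : ∀ i ∈ S, ∀ l, (g ^ l) i = i → p ∣ l) : #S ≤ ((parts g).filter (p ∣ ·)).sum := by
  have h1 : S ⊆ (g.cycleFactorsFinset.filter (p ∣ #·.support)).biUnion Perm.support := by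
    intro i hi
    have h2 : i ∈ g.support := Perm.mem_support.2 fun h2 =>
      hp.out.one_lt.ne' (Nat.dvd_one.1 (h i hi 1 (by simpa using h2)))
    refine mem_biUnion.2 ⟨g.cycleOf i, mem_filter.2
      ⟨Perm.cycleOf_mem_cycleFactorsFinset_iff.2 h2, h i hi _ ?_⟩,
      Perm.mem_support_cycleOf_iff.2 ⟨Perm.SameCycle.refl _ _, h2⟩⟩
    rw [← Perm.pow_mod_card_support_cycleOf_self_apply, Nat.mod_self, pow_zero, Perm.one_apply]
  refine ((card_le_card h1).trans card_biUnion_le).trans ?_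
  rw [parts_eq, Multiset.filter_add, Multiset.sum_add, Perm.cycleType_def, Multiset.filter_map]
  exact Nat.le_add_right _ _

/-- An abelian `p`-group of permutations of order `p ^ k` moves at least `p * k` points. -/
theorem mul_le_card_of_comm (S : Finset α) : ∀ (A : Subgroup (Perm α)) (k : ℕ),
    Nat.card A = p ^ k → (∀ a ∈ A, ∀ b ∈ A, Commute a b) → (∀ a ∈ A, a.support ⊆ S) →
    p * k ≤ #S := by
  induction S using Finset.strongInduction with
  | H S ih =>
  intro A k hk hc hS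
  rcases A.bot_or_exists_ne_one with rfl | ⟨a, ha, h1⟩
  · rw [Subgroup.card_bot, eq_comm, Nat.pow_eq_one] at hk
    simp [hk.resolve_left hp.out.one_lt.ne']
  obtain ⟨i, hi⟩ : ∃ i, a i ≠ i := by
    by_contra! h2
    exact h1 (Equiv.ext h2)
  classical
  let O : Finset α := {j | j ∈ orbit A i}
  have hO : O ⊆ S := fun j hj => by
    obtain ⟨b, rfl⟩ := (mem_filter.1 hj).2
    refine hS a ha (Perm.mem_support.2 fun h2 => hi (b.1.injective ?_))
    rw [← Perm.mul_apply, ← (hc a ha b b.2).eq]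
    exact h2
  have h2 : (stabilizer A i).index = #O := by
    rw [index_stabilizer, ← Set.ncard_coe_finset]
    simp [O]
  have hA := IsPGroup.of_card hk
  obtain ⟨j, hj⟩ := hA.index (stabilizer A i)
  obtain ⟨m, hm⟩ := IsPGroup.iff_card.1 (hA.to_subgroup (stabilizer A i))
  have h3 := (stabilizer A i).card_mul_index
  rw [hm, hj, hk, ← pow_add, Nat.pow_right_inj hp.out.one_lt] at h3
  have h4 := ih (S \ O) (sdiff_ssubset hO ⟨i, by simp [O, mem_orbit_self]⟩)
    ((stabilizer A i).map A.subtype) m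
    (by rw [Subgroup.card_map_of_injective A.subtype_injective, hm])
    (by rintro _ ⟨b, -, rfl⟩ _ ⟨c, -, rfl⟩; exact hc _ b.2 _ c.2) (by
      rintro _ ⟨b, hb, rfl⟩ x hx
      refine mem_sdiff.2 ⟨hS _ b.2 hx, fun h4 => Perm.mem_support.1 hx ?_⟩
      obtain ⟨c, rfl⟩ := (mem_filter.1 h4).2
      change (b.1 * c.1) i = c.1 i
      rw [(hc _ b.2 _ c.2).eq]
      exact congrArg c.1 hb)
  rw [card_sdiff_of_subset hO, ← h2, hj] at h4
  have h5 := card_le_card hO
  have h6 : p * j ≤ p ^ j := Nat.mul_le_pow hp.out.one_lt.ne' j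
  rw [← h2, hj] at h5
  rw [← h3, mul_add]
  omega

omit [DecidableEq α] in
/-- A central element of the constituent of a `p`-group on an orbit. -/
theorem exists_local {D : Subgroup (Perm α)} (hD : IsPGroup p D) {i : α} (hi : ∃ d ∈ D, d i ≠ i) :
    ∃ y : Perm α, y ≠ 1 ∧ (∃ k, y ^ p ^ k = 1) ∧ (∀ d ∈ D, Commute d y) ∧
      (∀ j, ∃ d ∈ D, y j = d j) ∧ ∀ j, y j ≠ j → ∃ d ∈ D, d i = j := by
  classical
  let ρ : D →* Perm α := Perm.ofSubtype.comp (toPermHom D (orbit D i))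
  have h1 : ∀ d j, j ∈ orbit D i → ρ d j = d.1 j := fun d j hj =>
    Perm.ofSubtype_apply_of_mem _ hj
  have h2 : ∀ d j, j ∉ orbit D i → ρ d j = j := fun d j hj =>
    Perm.ofSubtype_apply_of_not_mem _ hj
  have h3 : IsPGroup p ρ.range := hD.of_surjective _ ρ.rangeRestrict_surjective
  obtain ⟨d, hd, hi⟩ := hi
  have : Nontrivial ρ.range := ⟨⟨⟨_, ⟨d, hd⟩, rfl⟩, 1, fun h => hi
    ((h1 ⟨d, hd⟩ i (mem_orbit_self i)).symm.trans (congrArg (fun x : ρ.range => x.1 i) h))⟩⟩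
  have := h3.center_nontrivial
  obtain ⟨⟨⟨_, y, rfl⟩, hy⟩, h4⟩ := exists_ne (1 : Subgroup.center ρ.range)
  refine ⟨ρ y, fun h => h4 (Subtype.ext (Subtype.ext h)), ?_, fun e he => Equiv.ext fun j => ?_,
    fun j => ?_, fun j hj => ?_⟩
  · obtain ⟨k, hk⟩ := hD y
    exact ⟨k, by rw [← map_pow, hk, map_one]⟩
  · by_cases hj : j ∈ orbit D i
    · have h5 := congrArg (fun x : ρ.range => x.1 j)
        (Subgroup.mem_center_iff.1 hy ⟨_, ⟨e, he⟩, rfl⟩)
      simp only [Subgroup.coe_mul, Perm.mul_apply] at h5 ⊢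
      rwa [h1 _ j hj, h1 ⟨e, he⟩ j hj, h1 ⟨e, he⟩ (y.1 j) (mem_orbit_of_mem_orbit y hj),
        ← h1 _ j hj] at h5
    · rw [Perm.mul_apply, Perm.mul_apply, h2 _ j hj, h2]
      exact fun h => hj (by
        simpa [Subgroup.smul_def] using mem_orbit_of_mem_orbit (⟨e, he⟩ : D)⁻¹ h)
  · by_cases hj : j ∈ orbit D i
    · exact ⟨y, y.2, h1 _ _ hj⟩
    · exact ⟨1, D.one_mem, h2 _ _ hj⟩
  · obtain ⟨e, he⟩ := not_not.1 fun h => hj (h2 _ _ h)
    exact ⟨e, e.2, he⟩

end Cfsg.Agent.Spin
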