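import Cfsg.Agent.Spin.Bos
import Cfsg.Agent.Char.FS

/-!
# The double cover of the symmetric group in the complex Clifford algebra
-/

set_option linter.unusedSectionVars false

namespace Cfsg.Agent.Spin

open CliffordAlgebra Equiv
open scoped commutatorElement

variable {α : Type} [Fintype α] [DecidableEq α]

/-- The standard quadratic form. -/
noncomputable abbrev QF (α : Type) [Fintype α] : QuadraticForm ℂ (α → ℂ) :=
  QuadraticMap.weightedSumSquares ℂ (fun _ : α => (1 : ℂ))

/-- The Clifford algebra. -/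
abbrev Cl (α : Type) [Fintype α] := CliffordAlgebra (QF α)

/-- The orthonormal generators. -/
noncomputable def γ (i : α) : Cl α := ι (QF α) (Pi.single i 1)

theorem γ_sq (i : α) : γ i * γ i = 1 := by
  rw [γ, ι_sq_scalar, QuadraticMap.weightedSumSquares_apply, Finset.sum_eq_single i] <;>
    simp +contextual

theorem γ_anti {i j : α} (h : i ≠ j) : γ i * γ j = -(γ j * γ i) := by
  apply ι_mul_ι_comm_of_isOrtho
  rw [QuadraticMap.isOrtho_def]
  simp only [QuadraticMap.weightedSumSquares_apply, ← Finset.sum_add_distrib]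
  refine Finset.sum_congr rfl fun k _ => ?_
  by_cases h1 : k = i
  · subst h1; simp [h]
  · simp [h1]

theorem involute_γ (i : α) : involute (γ i) = -γ i := involute_ι _

theorem eq_zero_of_add_self {x : Cl α} (h : x + x = 0) : x = 0 := by
  rw [← two_smul ℂ x] at h
  simpa using h

theorem adjoin_γ : Algebra.adjoin ℂ (γ '' ((Finset.univ : Finset α) : Set α)) = ⊤ := by
  rw [eq_top_iff, ← adjoin_range_ι, Algebra.adjoin_le_iff]
  rintro _ ⟨v, rfl⟩
  have : ι (QF α) v = ∑ i, v i • γ i := by
    conv_lhs => rw [pi_eq_sum_univ' v]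
    simp only [map_sum, map_smul, γ]
  rw [this]
  exact Subalgebra.sum_mem _ fun i _ =>
    Subalgebra.smul_mem _ (Algebra.subset_adjoin (Set.mem_image_of_mem γ (by simp))) _

theorem twist {S : Finset α} {k : α} (hk : k ∉ S) {c : Cl α}
    (hc : c ∈ Algebra.adjoin ℂ (γ '' (S : Set α))) :
    involute c ∈ Algebra.adjoin ℂ (γ '' (S : Set α)) ∧ γ k * c = involute c * γ k := by
  induction hc using Algebra.adjoin_induction with
  | mem x hx =>
    obtain ⟨i, hi, rfl⟩ := hx
    rw [involute_γ]
    exact ⟨neg_mem (Algebra.subset_adjoin ⟨i, hi, rfl⟩), by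
      rw [γ_anti (show k ≠ i by rintro rfl; exact hk hi), neg_mul]⟩
  | algebraMap r =>
    rw [AlgHom.commutes]
    exact ⟨Subalgebra.algebraMap_mem _ _, (Algebra.commutes _ _).symm⟩
  | add x y _ _ hx hy =>
    rw [map_add]
    exact ⟨add_mem hx.1 hy.1, by rw [mul_add, add_mul, hx.2, hy.2]⟩
  | mul x y _ _ hx hy =>
    rw [map_mul]
    exact ⟨mul_mem hx.1 hy.1, by rw [← mul_assoc, hx.2, mul_assoc, hy.2, mul_assoc]⟩

theorem decomp {S : Finset α} {k : α} (hk : k ∉ S) {x : Cl α}
    (hx : x ∈ Algebra.adjoin ℂ (γ '' ((insert k S : Finset α) : Set α))) :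
    ∃ a ∈ Algebra.adjoin ℂ (γ '' (S : Set α)),
      ∃ b ∈ Algebra.adjoin ℂ (γ '' (S : Set α)), x = a + b * γ k := by
  induction hx using Algebra.adjoin_induction with
  | mem x hx =>
    obtain ⟨i, hi, rfl⟩ := hx
    rcases Finset.mem_insert.1 hi with rfl | hi
    · exact ⟨0, zero_mem _, 1, one_mem _, by simp⟩
    · exact ⟨γ i, Algebra.subset_adjoin ⟨i, hi, rfl⟩, 0, zero_mem _, by simp⟩
  | algebraMap r => exact ⟨_, Subalgebra.algebraMap_mem _ r, 0, zero_mem _, by simp⟩
  | add x y _ _ hx hy =>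
    obtain ⟨a, ha, b, hb, rfl⟩ := hx
    obtain ⟨c, hc, d, hd, rfl⟩ := hy
    exact ⟨a + c, add_mem ha hc, b + d, add_mem hb hd, by noncomm_ring⟩
  | mul x y _ _ hx hy =>
    obtain ⟨a, ha, b, hb, rfl⟩ := hx
    obtain ⟨c, hc, d, hd, rfl⟩ := hy
    obtain ⟨c1, c2⟩ := twist hk hc
    obtain ⟨d1, d2⟩ := twist hk hd
    refine ⟨a * c + b * involute d, add_mem (mul_mem ha hc) (mul_mem hb d1),
      a * d + b * involute c, add_mem (mul_mem ha hd) (mul_mem hb c1), ?_⟩
    calc (a + b * γ k) * (c + d * γ k)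
        = a * c + a * d * γ k + b * (γ k * c) + b * (γ k * d) * γ k := by noncomm_ring
      _ = a * c + a * d * γ k + b * involute c * γ k + b * involute d * (γ k * γ k) := by
        rw [c2, d2]; noncomm_ring
      _ = _ := by rw [γ_sq]; noncomm_ring

theorem scalar_aux (S : Finset α) : ∀ x ∈ Algebra.adjoin ℂ (γ '' (S : Set α)),
    (∀ i ∈ S, involute x * γ i = γ i * x) → ∃ c, x = algebraMap ℂ (Cl α) c := by
  induction S using Finset.induction with
  | empty =>
    intro x hx _
    simp only [Finset.coe_empty, Set.image_empty, Algebra.adjoin_empty, Algebra.mem_bot] at hx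
    obtain ⟨c, rfl⟩ := hx
    exact ⟨c, rfl⟩
  | insert k S hk ih =>
    intro x hx h
    obtain ⟨a, ha, b, hb, rfl⟩ := decomp hk hx
    have h1 := h k (Finset.mem_insert_self _ _)
    rw [map_add, map_mul, involute_γ, mul_add, ← mul_assoc, (twist hk ha).2, (twist hk hb).2,
      add_mul, mul_neg, neg_mul, mul_assoc, γ_sq, mul_one, add_right_inj] at h1
    have h2 : involute b = 0 := eq_zero_of_add_self (by nth_rewrite 1 [← h1]; simp)
    have h3 : b = 0 := by rw [← involute_involute b, h2, map_zero]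
    subst h3
    simp only [zero_mul, add_zero] at h ⊢
    exact ih a ha fun i hi => h i (Finset.mem_insert_of_mem hi)

theorem scalar {x : Cl α} (h : ∀ i, involute x * γ i = γ i * x) :
    ∃ c, x = algebraMap ℂ (Cl α) c :=
  scalar_aux Finset.univ x (by rw [adjoin_γ]; trivial) fun i _ => h i

/-- A basis of the Clifford algebra. -/
noncomputable def clBasis (α : Type) [Fintype α] :=
  (Module.finBasis ℂ (α → ℂ)).ExteriorAlgebra.map (equivExterior (QF α)).symm

instance : FiniteDimensional ℂ (Cl α) := Module.Finite.of_basis (clBasis α)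

theorem finrank_Cl : Module.finrank ℂ (Cl α) = 2 ^ Fintype.card α := by
  simp [Module.finrank_eq_card_basis (clBasis α)]

/-- The sign as a complex number. -/
def sg (σ : Perm α) : ℂ := ((Perm.sign σ : ℤ) : ℂ)

theorem sg_mul (σ τ : Perm α) : sg (σ * τ) = sg σ * sg τ := by simp [sg]

theorem sg_mul_self (σ : Perm α) : sg σ * sg σ = 1 := by
  rcases Int.units_eq_one_or (Perm.sign σ) with h | h <;> simp [sg, h]

theorem sg_cases (σ : Perm α) : sg σ = 1 ∨ sg σ = -1 := mul_self_eq_one_iff.1 (sg_mul_self σ)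

/-- The double cover of the symmetric group. -/
def Pin (α : Type) [Fintype α] [DecidableEq α] : Subgroup ((Cl α)ˣ × Perm α) where
  carrier := {p | (∀ i, involute (p.1 : Cl α) * γ i = γ (p.2 i) * p.1) ∧
    involute (p.1 : Cl α) = sg p.2 • (p.1 : Cl α) ∧ reverse (p.1 : Cl α) * p.1 = 1}
  one_mem' := by simp [sg]
  mul_mem' {p q} hp hq := by
    simp only [Set.mem_ofPred_eq, Prod.fst_mul, Units.val_mul, map_mul, Prod.snd_mul,
      Perm.mul_apply, reverse.map_mul]
    refine ⟨fun i => by rw [mul_assoc, hq.1, ← mul_assoc, hp.1, mul_assoc], ?_, ?_⟩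
    · rw [hp.2.1, hq.2.1, smul_mul_smul_comm, sg_mul]
    · rw [mul_assoc, ← mul_assoc (reverse (p.1 : Cl α)), hp.2.2, one_mul, hq.2.2]
  inv_mem' {p} hp := by
    have e : involute ((p.1⁻¹ : (Cl α)ˣ) : Cl α) * involute (p.1 : Cl α) = 1 := by
      rw [← map_mul, Units.inv_mul, map_one]
    simp only [Set.mem_ofPred_eq, Prod.fst_inv, Prod.snd_inv]
    refine ⟨fun i => ?_, ?_, ?_⟩
    · have h := hp.1 (p.2⁻¹ i)
      rw [show p.2 (p.2⁻¹ i) = i by simp] at h
      calc involute ((p.1⁻¹ : (Cl α)ˣ) : Cl α) * γ i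
          = involute ((p.1⁻¹ : (Cl α)ˣ) : Cl α) * (γ i * p.1) * ((p.1⁻¹ : (Cl α)ˣ) : Cl α) := by
            rw [mul_assoc, mul_assoc, Units.mul_inv, mul_one]
        _ = _ := by rw [← h, ← mul_assoc, e, one_mul]
    · rw [hp.2.1, mul_smul_comm, ← smul_mul_assoc, Units.mul_eq_one_iff_eq_inv] at e
      nth_rewrite 2 [← e]
      rw [smul_smul, show sg p.2⁻¹ = sg p.2 by simp [sg], sg_mul_self, one_smul]
    · nth_rewrite 1 [← Units.mul_eq_one_iff_eq_inv.1 hp.2.2]
      rw [reverse_reverse, Units.mul_inv]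

/-- The projection onto the symmetric group. -/
noncomputable def proj (α : Type) [Fintype α] [DecidableEq α] : Pin α →* Perm α :=
  (MonoidHom.snd _ _).comp (Pin α).subtype

/-- The underlying element of the Clifford algebra. -/
noncomputable def el : Pin α →* Cl α :=
  (Units.coeHom _).comp ((MonoidHom.fst _ _).comp (Pin α).subtype)

theorem involute_el (g : Pin α) : involute (el g) = sg (proj α g) • el g := g.2.2.1

theorem el_mul_γ (g : Pin α) (i : α) : el g * γ i = sg (proj α g) • (γ (proj α g i) * el g) := by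
  have h : involute (el g) * γ i = γ (proj α g i) * el g := g.2.1 i
  rw [← h, involute_el, smul_mul_assoc, smul_smul, sg_mul_self, one_smul]

theorem Pin_ext {g h : Pin α} (h1 : el g = el h) (h2 : proj α g = proj α h) : g = h :=
  Subtype.ext (Prod.ext (Units.ext h1) h2)

/-- The central involution. -/
noncomputable def zP (α : Type) [Fintype α] [DecidableEq α] : Pin α := ⟨(-1, 1), by simp [Pin, sg]⟩

theorem proj_zP : proj α (zP α) = 1 := rfl

theorem el_zP : el (zP α) = -1 := rfl

theorem zP_mul_zP : zP α * zP α = 1 := Pin_ext (by simp [el_zP]) (by simp [proj_zP])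

theorem zP_ne_one : zP α ≠ 1 := fun h => by
  have h1 : (-1 : Cl α) = 1 := by rw [← el_zP, h, map_one]
  exact one_ne_zero (eq_zero_of_add_self (x := (1 : Cl α)) (by nth_rewrite 1 [← h1]; simp))

theorem zP_comm (g : Pin α) : g * zP α = zP α * g :=
  Pin_ext (by simp [el_zP]) (by simp [proj_zP])

theorem proj_eq_one_iff {g : Pin α} : proj α g = 1 ↔ g = 1 ∨ g = zP α := by
  refine ⟨fun h => ?_, by rintro (rfl | rfl) <;> rfl⟩
  obtain ⟨c, hc⟩ := scalar (x := el g) fun i => by
    have h1 : involute (el g) * γ i = γ (proj α g i) * el g := g.2.1 i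
    rwa [h] at h1
  have h1 : reverse (el g) * el g = 1 := g.2.2.2
  rw [hc, reverse.commutes, ← map_mul, ← map_one (algebraMap ℂ (Cl α))] at h1
  rcases mul_self_eq_one_iff.1 ((algebraMap ℂ (Cl α)).injective h1) with rfl | rfl
  · exact Or.inl (Pin_ext (by simpa using hc) h)
  · exact Or.inr (Pin_ext (by simpa [el_zP] using hc) h)

theorem sub_sq {a b : α} (h : a ≠ b) :
    ((√2 : ℂ)⁻¹ • (γ a - γ b)) * ((√2 : ℂ)⁻¹ • (γ a - γ b)) = 1 := by
  have : (γ a - γ b) * (γ a - γ b) = γ a * γ a + γ b * γ b - (γ a * γ b + γ b * γ a) := by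
    noncomm_ring
  rw [smul_mul_smul_comm, this, γ_sq, γ_sq, γ_anti h, neg_add_cancel, sub_zero, ← mul_inv,
    ← Complex.ofReal_mul, Real.mul_self_sqrt zero_le_two, ← two_smul ℂ, smul_smul]
  simp

/-- The lift of a transposition. -/
noncomputable def tt {a b : α} (h : a ≠ b) : Pin α :=
  ⟨(⟨_, _, sub_sq h, sub_sq h⟩, swap a b), fun i => by
    simp only [map_smul, map_sub, involute_γ, smul_mul_assoc, mul_smul_comm]
    congr 1
    by_cases ha : i = a
    · subst ha
      rw [swap_apply_left, sub_mul, mul_sub, neg_mul, neg_mul, γ_sq, γ_sq]; abel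
    by_cases hb : i = b
    · subst hb
      rw [swap_apply_right, sub_mul, mul_sub, neg_mul, neg_mul, γ_sq, γ_sq]; abel
    rw [swap_apply_of_ne_of_ne ha hb, sub_mul, mul_sub, neg_mul, neg_mul, γ_anti ha, γ_anti hb],
    by simp [sg, h, involute_γ, smul_sub], by
    simpa only [map_smul, map_sub, γ, reverse_ι] using sub_sq h⟩

theorem proj_tt {a b : α} (h : a ≠ b) : proj α (tt h) = swap a b := rfl

theorem el_tt {a b : α} (h : a ≠ b) : el (tt h) = (√2 : ℂ)⁻¹ • (γ a - γ b) := rfl

theorem tt_sq {a b : α} (h : a ≠ b) : tt h * tt h = 1 := Pin_ext (sub_sq h) (swap_mul_self a b)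

theorem tt_anti {a b c d : α} (h : a ≠ b) (h' : c ≠ d) (h1 : a ≠ c) (h2 : a ≠ d) (h3 : b ≠ c)
    (h4 : b ≠ d) : tt h * tt h' = zP α * (tt h' * tt h) := by
  refine Pin_ext ?_ ?_
  · simp only [map_mul, el_tt, el_zP, smul_mul_smul_comm, neg_one_mul, ← smul_neg, sub_mul, mul_sub]
    rw [γ_anti h1, γ_anti h2, γ_anti h3, γ_anti h4]
    congr 1
    noncomm_ring
  · show swap a b * swap c d = 1 * (swap c d * swap a b)
    ext x
    simp only [one_mul, Perm.mul_apply, swap_apply_def]
    grind

theorem proj_surjective : Function.Surjective (proj α) := by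
  intro σ
  induction σ using Perm.swap_induction_on with
  | one => exact ⟨1, map_one _⟩
  | swap_mul f x y hxy ih =>
    obtain ⟨g, rfl⟩ := ih
    exact ⟨tt hxy * g, by rw [map_mul, proj_tt]⟩

theorem eq_or_eq_of_proj_eq {g h : Pin α} (e : proj α g = proj α h) : g = h ∨ g = h * zP α := by
  rcases (proj_eq_one_iff (g := h⁻¹ * g)).1 (by simp [e]) with h1 | h1
  · exact Or.inl (inv_mul_eq_one.1 h1).symm
  · exact Or.inr (by rw [← h1]; group)

theorem ker_proj : (proj α).ker = Subgroup.zpowers (zP α) := by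
  apply le_antisymm
  · intro g hg
    rcases proj_eq_one_iff.1 hg with rfl | rfl
    · exact one_mem _
    · exact Subgroup.mem_zpowers _
  · rw [Subgroup.zpowers_le]; exact proj_zP

theorem card_ker_proj : Nat.card (proj α).ker = 2 := by
  rw [ker_proj, Nat.card_zpowers, orderOf_eq_prime (by rw [pow_two, zP_mul_zP]) zP_ne_one]

theorem ker_proj_le : (proj α).ker ≤ Subgroup.center (Pin α) := by
  rw [ker_proj, Subgroup.zpowers_le]
  exact Subgroup.mem_center_iff.2 zP_comm

theorem card_Pin : Nat.card (Pin α) = 2 * (Fintype.card α).factorial := by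
  rw [← (proj α).ker.card_mul_index, card_ker_proj, Subgroup.index_ker,
    MonoidHom.range_eq_top.2 proj_surjective]
  simp [Fintype.card_perm]

instance : Finite (Pin α) := Nat.finite_of_card_ne_zero (by rw [card_Pin]; positivity)

noncomputable instance : Fintype (Pin α) := Fintype.ofFinite _

/-- The double cover of the alternating group. -/
noncomputable abbrev Cov (α : Type) [Fintype α] [DecidableEq α] : Subgroup (Pin α) :=
  (alternatingGroup α).comap (proj α)

noncomputable instance : Fintype (Cov α) := Fintype.ofFinite _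

theorem index_Cov [Nontrivial α] : (Cov α).index = 2 := by
  rw [Subgroup.index_comap_of_surjective _ proj_surjective, alternatingGroup.index_eq_two]

/-- The projection onto the alternating group. -/
noncomputable def projA (α : Type) [Fintype α] [DecidableEq α] : Cov α →* alternatingGroup α :=
  ((proj α).comp (Cov α).subtype).codRestrict _ fun g => g.2

theorem projA_surjective : Function.Surjective (projA α) := by
  intro σ
  obtain ⟨g, hg⟩ := proj_surjective σ.1
  exact ⟨⟨g, by rw [Subgroup.mem_comap, hg]; exact σ.2⟩, Subtype.ext hg⟩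

/-- The central involution of the cover of the alternating group. -/
noncomputable def zA (α : Type) [Fintype α] [DecidableEq α] : Cov α :=
  ⟨zP α, by rw [Subgroup.mem_comap, proj_zP]; exact one_mem _⟩

theorem ker_projA : (projA α).ker = Subgroup.zpowers (zA α) := by
  apply le_antisymm
  · intro g hg
    rcases (proj_eq_one_iff (g := g.1)).1 (congrArg Subtype.val hg) with h | h
    · rw [show g = 1 from Subtype.ext h]; exact one_mem _
    · rw [show g = zA α from Subtype.ext h]; exact Subgroup.mem_zpowers _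
  · rw [Subgroup.zpowers_le]; rfl

theorem card_ker_projA : Nat.card (projA α).ker = 2 := by
  rw [ker_projA, Nat.card_zpowers, orderOf_eq_prime (by rw [pow_two]; exact Subtype.ext zP_mul_zP)
    fun h => zP_ne_one (congrArg Subtype.val h)]

theorem ker_projA_le : (projA α).ker ≤ Subgroup.center (Cov α) := by
  rw [ker_projA, Subgroup.zpowers_le]
  exact Subgroup.mem_center_iff.2 fun g => Subtype.ext (zP_comm g.1)

theorem tt_tt_sq {a b c d : α} (h : a ≠ b) (h' : c ≠ d) (h1 : a ≠ c) (h2 : a ≠ d) (h3 : b ≠ c)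
    (h4 : b ≠ d) : tt h * tt h' * (tt h * tt h') = zP α := by
  nth_rewrite 2 [tt_anti h h' h1 h2 h3 h4]
  rw [mul_assoc, ← mul_assoc (tt h'), zP_comm, mul_assoc, ← mul_assoc (tt h'), tt_sq, one_mul,
    ← mul_assoc, zP_comm, mul_assoc, tt_sq, mul_one]

theorem sq_of_double {g : Pin α} {a b c d : α} (h : a ≠ b) (h' : c ≠ d) (h1 : a ≠ c) (h2 : a ≠ d)
    (h3 : b ≠ c) (h4 : b ≠ d) (e : proj α g = swap a b * swap c d) : g * g = zP α := by
  rw [← tt_tt_sq h h' h1 h2 h3 h4]
  rcases eq_or_eq_of_proj_eq (h := tt h * tt h') (by rw [e, map_mul, proj_tt, proj_tt]) with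
    rfl | rfl
  · rfl
  · rw [mul_assoc, ← mul_assoc (zP α), ← zP_comm, mul_assoc _ (zP α), zP_mul_zP, mul_one]

theorem ker_projA_le_commutator {a b c d : α} (h : a ≠ b) (h' : c ≠ d) (h1 : a ≠ c)
    (h2 : a ≠ d) (h3 : b ≠ c) (h4 : b ≠ d) : (projA α).ker ≤ commutator (Cov α) := by
  obtain ⟨x, hx⟩ := projA_surjective (α := α)
    ⟨swap a b * swap c d, by simp [Perm.mem_alternatingGroup, h, h']⟩
  obtain ⟨y, hy⟩ := projA_surjective (α := α)
    ⟨swap a c * swap b d, by simp [Perm.mem_alternatingGroup, h1, h4]⟩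
  have hx' : proj α x = _ := congrArg Subtype.val hx
  have hy' : proj α y = _ := congrArg Subtype.val hy
  have e1 := sq_of_double h h' h1 h2 h3 h4 hx'
  have e2 := sq_of_double h1 h4 h h2 h3.symm h' hy'
  have e3 := sq_of_double (g := x.1 * y.1) h2 h3 h h1 h4.symm h'.symm (by
    rw [map_mul, hx', hy']
    ext x
    simp only [Perm.mul_apply, swap_apply_def]
    grind)
  have i1 : (x : Pin α)⁻¹ = x * zP α := by
    rw [inv_eq_iff_mul_eq_one, ← mul_assoc, e1, zP_mul_zP]
  have i2 : (y : Pin α)⁻¹ = zP α * y := by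
    rw [inv_eq_iff_mul_eq_one, ← zP_comm, ← mul_assoc, e2, zP_mul_zP]
  have : zA α = ⁅x, y⁆ := Subtype.ext (by
    change zP α = x * y * (x : Pin α)⁻¹ * (y : Pin α)⁻¹
    rw [i1, i2, mul_assoc _ _ (zP α * _), mul_assoc _ (zP α), ← mul_assoc (zP α), zP_mul_zP,
      one_mul, e3])
  rw [ker_projA, Subgroup.zpowers_le, this]
  exact Subgroup.commutator_mem_commutator (Subgroup.mem_top _) (Subgroup.mem_top _)

end Cfsg.Agent.Spin
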