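import Cfsg.Agent.Spin.Pin

/-!
# The normalised trace on the double cover of the symmetric group
-/

set_option linter.unusedSectionVars false

namespace Cfsg.Agent.Spin

open CliffordAlgebra Equiv Finset Cfsg Cfsg.Agent.Char Cfsg.Agent.SymCh
open scoped ComplexConjugate

theorem isCharacter_div_two_pow {G V ι : Type*} [Group G] [AddCommGroup V] [Module ℂ V]
    [FiniteDimensional ℂ V] (ρ : Representation ℂ G V) (u : ι → Module.End ℂ V) (k : ℕ) :
    ∀ (s : Finset ι) (e : Module.End ℂ V), 2 * k ≤ #s → (∀ i ∈ s, u i * u i = 1) →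
      (∀ i ∈ s, ∀ j ∈ s, i ≠ j → u i * u j = -(u j * u i)) → (∀ i ∈ s, ∀ g, Commute (u i) (ρ g)) →
      e * e = e → (∀ g, Commute e (ρ g)) → (∀ i ∈ s, Commute e (u i)) →
      IsCharacter G fun g => LinearMap.trace ℂ V (ρ g * e) / 2 ^ k := by
  classical
  induction k with
  | zero => intro s e _ _ _ _ h1 h2 _; simpa using isCharacter_trace_mul_of_idempotent ρ e h1 h2
  | succ k ih =>
    intro s e hs h1 h2 h3 h4 h5 h6
    obtain ⟨i, hi, j, hj, hij⟩ := one_lt_card.1 (show 1 < #s by omega)
    let w := Complex.I • (u i * u j)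
    have hw : w * w = 1 := by
      rw [smul_mul_smul_comm, Complex.I_mul_I, mul_assoc, ← mul_assoc (u j), h2 j hj i hi hij.symm,
        neg_mul, mul_assoc, h1 j hj, mul_one, mul_neg, h1 i hi]
      simp
    have hs' : (s.erase i).erase j ⊆ s := (erase_subset _ _).trans (erase_subset _ _)
    have hc : ∀ {x}, Commute x w → Commute x ((1 / 2 : ℂ) • (1 + w)) := fun h =>
      ((Commute.one_right _).add_right h).smul_right _
    have hew : Commute e w := ((h6 i hi).mul_right (h6 j hj)).smul_right _
    have h7 := ih ((s.erase i).erase j) (e * (1 / 2 : ℂ) • (1 + w))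
      (by rw [card_erase_of_mem (mem_erase.2 ⟨hij.symm, hj⟩), card_erase_of_mem hi]; omega)
      (fun l hl => h1 l (hs' hl)) (fun l hl m hm => h2 l (hs' hl) m (hs' hm))
      (fun l hl => h3 l (hs' hl)) (by
        rw [(hc hew).symm.mul_mul_mul_comm, h4, smul_mul_smul_comm, mul_add, add_mul, add_mul, hw]
        simp only [one_mul, mul_one]
        congr 1
        module)
      (fun g => (h5 g).mul_left (hc (((h3 i hi g).mul_left (h3 j hj g)).smul_left _).symm).symm)
      fun l hl => (h6 l (hs' hl)).mul_left (hc (Commute.smul_right (by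
        have h8 := mem_erase.1 hl
        have h9 := mem_erase.1 h8.2
        change u l * (u i * u j) = u i * u j * u l
        rw [← mul_assoc, h2 l h9.2 i hi h9.1, neg_mul, mul_assoc, h2 l h9.2 j hj h8.1, mul_neg,
          neg_neg, mul_assoc]) _)).symm
    convert h7 using 2 with g
    have h8 : LinearMap.trace ℂ V (ρ g * (e * (u i * u j))) = 0 := by
      have : LinearMap.trace ℂ V (ρ g * (e * (u i * u j))) =
          -LinearMap.trace ℂ V (ρ g * (e * (u i * u j))) := by
        nth_rewrite 1 [h2 i hi j hj hij]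
        rw [mul_neg, mul_neg, map_neg, ← mul_assoc e, ← mul_assoc, LinearMap.trace_mul_comm,
          ← mul_assoc, (h3 i hi g).eq, mul_assoc, ← mul_assoc (u i), ← (h6 i hi).eq, mul_assoc]
      linear_combination this / 2
    simp only [w, mul_smul_comm, mul_add, mul_one, map_smul, map_add, h8, smul_eq_mul]
    ring

variable {α : Type} [Fintype α] [DecidableEq α]

/-- The grade involution as a linear operator. -/
noncomputable def PP : Module.End ℂ (Cl α) := involute.toLinearMap

theorem PP_mul_PP : (PP : Module.End ℂ (Cl α)) * PP = 1 := LinearMap.ext fun x => by simp [PP]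

/-- The normalised trace. -/
noncomputable def tr : Cl α →ₗ[ℂ] ℂ := ((2 : ℂ) ^ Fintype.card α)⁻¹ •
  (LinearMap.trace ℂ (Cl α) ∘ₗ (Algebra.lmul ℂ (Cl α)).toLinearMap)

theorem tr_apply (x : Cl α) : tr x =
    ((2 : ℂ) ^ Fintype.card α)⁻¹ * LinearMap.trace ℂ (Cl α) (Algebra.lmul ℂ (Cl α) x) := rfl

theorem tr_mul_comm (x y : Cl α) : tr (x * y) = tr (y * x) := by
  rw [tr_apply, tr_apply, map_mul, map_mul (Algebra.lmul ℂ (Cl α)), LinearMap.trace_mul_comm]

theorem tr_one : tr (1 : Cl α) = 1 := by rw [tr_apply, map_one]; simp [finrank_Cl]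

theorem tr_involute (x : Cl α) : tr (involute x) = tr x := by
  have : Algebra.lmul ℂ (Cl α) (involute x) = PP * Algebra.lmul ℂ (Cl α) x * PP :=
    LinearMap.ext fun y => by simp [PP]
  rw [tr_apply, tr_apply, this, LinearMap.trace_mul_cycle, PP_mul_PP, one_mul]

theorem tr_γ_mul {g : Pin α} {a : α} (h : proj α g a = a) : tr (γ a * el g) = 0 := by
  have h1 := tr_involute (γ a * el g)
  have h2 := tr_mul_comm (γ a) (el g)
  rw [map_mul, involute_γ, involute_el, mul_smul_comm, neg_mul, map_smul, map_neg,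
    smul_eq_mul] at h1
  rw [el_mul_γ, h, map_smul, smul_eq_mul] at h2
  linear_combination (h2 - h1) / 2

theorem tr_γ_γ_mul {g : Pin α} {a b : α} (hab : a ≠ b) (h : proj α g a = a) :
    tr (γ a * γ b * el g) = 0 := by
  have h1 := tr_involute (γ a * γ b * el g)
  have h2 := tr_mul_comm (γ a) (γ b * el g)
  rw [map_mul, map_mul involute, involute_γ, involute_γ, involute_el, mul_smul_comm, neg_mul_neg, map_smul,
    smul_eq_mul] at h1
  rw [mul_assoc, el_mul_γ, h, mul_smul_comm, ← mul_assoc, ← mul_assoc, γ_anti hab.symm, neg_mul,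
    map_smul, map_neg, smul_eq_mul] at h2
  linear_combination (h2 - h1) / 2

/-- The normalised basic spin character. -/
noncomputable def τ (g : Pin α) : ℂ := tr (el g)

theorem τ_one : τ (1 : Pin α) = 1 := by rw [τ, map_one, tr_one]

theorem τ_mul_zP (g : Pin α) : τ (g * zP α) = -τ g := by simp [τ, el_zP]

theorem τ_mul_comm (g h : Pin α) : τ (g * h) = τ (h * g) := by
  rw [τ, τ, map_mul, map_mul el, tr_mul_comm]

theorem τ_eq_zero {g : Pin α} (h : g ∉ Cov α) : τ g = 0 := by
  have h1 := tr_involute (el g)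
  have h2 : Perm.sign (proj α g) = -1 := (Int.units_eq_one_or _).resolve_left h
  rw [involute_el, sg, h2, map_smul] at h1
  simp only [Units.val_neg, Units.val_one, Int.cast_neg, Int.cast_one, smul_eq_mul] at h1
  rw [τ]
  linear_combination -h1 / 2

theorem norm_τ_congr {g h : Pin α} (e : proj α g = proj α h) :
    τ g * conj (τ g) = τ h * conj (τ h) := by
  rcases eq_or_eq_of_proj_eq e with rfl | rfl <;> simp [τ_mul_zP]

theorem τ_tt_mul {g : Pin α} {a b : α} (hab : a ≠ b) (ha : proj α g a = a) (hb : proj α g b = b) :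
    τ (tt hab * g) = 0 := by
  simp [τ, el_tt, sub_mul, tr_γ_mul ha, tr_γ_mul hb]

theorem τ_tt_tt_mul {g : Pin α} {a b c : α} (hab : a ≠ b) (hbc : b ≠ c) (hac : a ≠ c)
    (ha : proj α g a = a) (hb : proj α g b = b) : τ (tt hab * tt hbc * g) = -τ g / 2 := by
  rw [τ, map_mul, map_mul el, el_tt, el_tt, smul_mul_smul_comm]
  simp only [τ, smul_mul_assoc, sub_mul, mul_sub, map_smul,
    map_sub, tr_γ_γ_mul hab ha, tr_γ_γ_mul hac ha, tr_γ_γ_mul hbc hb, γ_sq, one_mul, ← mul_inv,
    ← Complex.ofReal_mul, Real.mul_self_sqrt zero_le_two, smul_eq_mul]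
  push_cast
  ring

theorem norm_τ_cycle (r : ℕ) : ∀ c d : Perm α, c.IsCycle → #c.support = r → c.Disjoint d →
    ∀ g h, proj α g = c * d → proj α h = d →
      τ g * conj (τ g) = wo 2 r / 2 ^ r * (τ h * conj (τ h)) := by
  induction r using Nat.strong_induction_on with
  | _ r ih =>
  intro c d hc hr hd g h hg hh
  obtain ⟨a, ha, -⟩ := id hc
  have hfix : ∀ x, c x ≠ x → d x = x := fun x hx => (hd x).resolve_left hx
  have hb : c (c a) ≠ c a := fun e => ha (c.injective e)
  by_cases h1 : c (c a) = a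
  · have h2 := hc.eq_swap_of_apply_apply_eq_self ha h1
    rw [norm_τ_congr (h := tt ha.symm * h) (by rw [map_mul, proj_tt, ← h2, hg, hh]),
      τ_tt_mul _ (hh ▸ hfix a ha) (hh ▸ hfix _ hb), ← hr, h2, Perm.card_support_swap ha.symm]
    simp [wo]
  have h2 := hc.swap_mul ha h1
  have h3 := Perm.support_swap_mul_eq c a h1
  set c₁ := swap a (c a) * c with hc₁
  have h4 : c₁ (c a) = c (c a) := swap_apply_of_ne_of_ne h1 hb
  have h5 : c₁ a = a := swap_apply_right _ _
  obtain ⟨k, hk⟩ := proj_surjective (swap (c a) (c (c a)) * c₁ * d)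
  have h6 : τ g * conj (τ g) = τ k * conj (τ k) / 4 := by
    rw [norm_τ_congr (h := tt ha.symm * tt hb.symm * k) (by
      rw [map_mul, map_mul, proj_tt, proj_tt, hk, hg, hc₁]
      simp only [mul_assoc, swap_mul_self_mul]), τ_tt_tt_mul _ _ (Ne.symm h1)]
    · simp only [map_div₀, map_neg, map_ofNat]; ring
    · rw [hk, Perm.mul_apply, Perm.mul_apply, hfix a ha, h5,
        swap_apply_of_ne_of_ne ha.symm (Ne.symm h1)]
    · rw [hk, Perm.mul_apply, Perm.mul_apply, hfix _ hb, h4, swap_apply_right]
  have h7 : #c₁.support + 1 = r := by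
    rw [h3, sdiff_singleton_eq_erase, card_erase_add_one (Perm.mem_support.2 ha), hr]
  rw [← h4] at hb hk
  by_cases h8 : c₁ (c₁ (c a)) = c a
  · have h9 := h2.eq_swap_of_apply_apply_eq_self hb h8
    rw [← h9] at hk
    rw [h9, Perm.card_support_swap hb.symm] at h7
    rw [h6, norm_τ_congr (h := h) (by rw [hk, hh, h9, swap_mul_self, one_mul]), ← h7, wo,
      if_pos (by decide)]
    ring
  · have h9 := Perm.support_swap_mul_eq c₁ _ h8
    have h10 : #(swap (c a) (c₁ (c a)) * c₁).support + 1 = #c₁.support := by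
      rw [h9, sdiff_singleton_eq_erase, card_erase_add_one (Perm.mem_support.2 hb)]
    rw [h6, ih _ (by omega) _ d (h2.swap_mul hb h8) rfl
      (hd.mono (by rw [h9, h3]; exact sdiff_subset.trans sdiff_subset) le_rfl) k h hk hh, ← h7,
      ← h10, wo, wo]
    simp only [add_assoc, Nat.odd_add, show Even (1 + 1) by decide, iff_true]
    ring

theorem norm_τ (g : Pin α) :
    τ g * conj (τ g) = wO 2 (parts (proj α g)) / 2 ^ Fintype.card α := by
  have key : ∀ σ : Perm α, ∀ g, proj α g = σ →
      τ g * conj (τ g) = wO 2 σ.cycleType / 2 ^ σ.cycleType.sum := by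
    intro σ
    induction σ using Perm.cycle_induction_on with
    | base_one => intro g hg; simp [norm_τ_congr (h := 1) hg, τ_one]
    | base_cycles c hc =>
      intro g hg
      rw [norm_τ_cycle _ c 1 hc rfl (Perm.disjoint_one_right c) g 1 (by simpa) rfl, hc.cycleType]
      simp [τ_one, wO]
    | induction_disjoint c d hd hc _ ih =>
      intro g hg
      obtain ⟨h, hh⟩ := proj_surjective d
      rw [norm_τ_cycle _ c d hc rfl hd g h hg hh, ih h hh, hd.cycleType_mul, hc.cycleType, wO_add]
      simp [wO, pow_add, div_mul_div_comm]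
  rw [key _ g rfl, parts_eq, wO_add, wO_of_odd 2 (ρ := Multiset.replicate _ 1) fun r hr => by
    rw [Multiset.eq_of_mem_replicate hr]; decide, Multiset.card_replicate, Perm.sum_cycleType]
  nth_rewrite 2 [← Nat.add_sub_cancel' (card_le_univ (proj α g).support)]
  rw [pow_add]
  field_simp

theorem τ_mul_wO (g : Pin α) : τ g * wO 1 (parts (proj α g)) = τ g := by
  by_cases h : ∀ r ∈ parts (proj α g), Odd r
  · simp [wO_of_odd 1 h]
  · have := norm_τ g
    rw [wO_of_not_odd 2 h] at this
    rw [wO_of_not_odd 1 h, mul_zero, eq_comm]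
    simpa using this

/-- The left regular representation. -/
noncomputable def reg : Representation ℂ (Pin α) (Cl α) :=
  (Algebra.lmul ℂ (Cl α)).toMonoidHom.comp el

theorem reg_apply (g : Pin α) (x : Cl α) : reg g x = el g * x := rfl

/-- The normalised sum of generators. -/
noncomputable def vS (S : Finset α) : Cl α := (√(#S) : ℂ)⁻¹ • ∑ a ∈ S, γ a

theorem involute_vS (S : Finset α) : involute (vS S) = -vS S := by
  simp [vS, involute_γ]

theorem vS_sq {S : Finset α} (h : S.Nonempty) : vS S * vS S = 1 := by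
  have : ∀ S : Finset α, (∑ a ∈ S, γ a) * ∑ a ∈ S, γ a = (#S : ℂ) • (1 : Cl α) := by
    intro S
    induction S using Finset.induction_on with
    | empty => simp
    | insert a S ha ih =>
      rw [sum_insert ha, add_mul, mul_add, mul_add, ih, γ_sq, card_insert_of_notMem ha, mul_sum,
        sum_mul, sum_congr rfl fun b hb => γ_anti (show a ≠ b by rintro rfl; exact ha hb),
        sum_neg_distrib, Nat.cast_succ, add_smul, one_smul]
      abel
  rw [vS, smul_mul_smul_comm, this, ← mul_inv, ← Complex.ofReal_mul,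
    Real.mul_self_sqrt (Nat.cast_nonneg _), smul_smul, Complex.ofReal_natCast,
    inv_mul_cancel₀ (Nat.cast_ne_zero.2 h.card_ne_zero), one_smul]

theorem vS_anti {S T : Finset α} (h : Disjoint S T) : vS S * vS T = -(vS T * vS S) := by
  rw [vS, vS, smul_mul_smul_comm, smul_mul_smul_comm, mul_comm (√(#T) : ℂ)⁻¹, ← smul_neg,
    sum_mul_sum, sum_mul_sum, sum_comm (s := T), ← sum_neg_distrib]
  congr 1
  refine sum_congr rfl fun a ha => ?_
  rw [← sum_neg_distrib]
  exact sum_congr rfl fun b hb => γ_anti (disjoint_iff_ne.1 h a ha b hb)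

theorem el_mul_vS {ι : Type*} [DecidableEq ι] {g : Pin α} {f : α → ι} (h : f ∘ proj α g = f)
    (j : ι) : el g * vS {a | f a = j} = sg (proj α g) • (vS {a | f a = j} * el g) := by
  rw [vS, mul_smul_comm, smul_mul_assoc, smul_comm, mul_sum, sum_mul]
  congr 1
  simp only [el_mul_γ, smul_sum]
  refine sum_equiv (proj α g) (fun a => ?_) fun _ _ => rfl
  simp only [mem_filter, mem_univ, true_and, show f (proj α g a) = f a from congrFun h a]

/-- The basic spin characters of the Young subgroups. -/
theorem isCharacter_τ {H ι : Type*} [Group H] [DecidableEq ι] (φ : H →* Pin α) {f : α → ι}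
    (hf : ∀ h, f ∘ proj α (φ h) = f) {ε k : ℕ} (hε : ε = 0 ∨ ε = 1 ∧ ∀ h, φ h ∈ Cov α)
    (hk : 2 * k ≤ Fintype.card α + #(univ.image f) + ε) :
    IsCharacter H fun h => 2 ^ Fintype.card α * τ (φ h) / 2 ^ k := by
  let u : α ⊕ ι ⊕ Unit → Module.End ℂ (Cl α) := Sum.elim (fun a => LinearMap.mulRight ℂ (γ a))
    (Sum.elim (fun j => Complex.I • (LinearMap.mulLeft ℂ (vS {a | f a = j}) * PP)) fun _ => PP)
  have := isCharacter_div_two_pow (reg.comp φ) u k
    (univ.disjSum ((univ.image f).disjSum (if ε = 0 then ∅ else univ))) 1 (by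
      rw [card_disjSum, card_disjSum, card_univ]
      rcases hε with rfl | ⟨rfl, -⟩ <;> simpa [add_assoc] using hk) ?_ ?_ ?_ (one_mul _)
      (fun _ => Commute.one_left _) fun _ _ => Commute.one_left _
  · convert this using 2 with h
    rw [τ, tr_apply, mul_inv_cancel_left₀ (by simp), mul_one]
    rfl
  · rintro (a | j | _) hi <;> refine LinearMap.ext fun x => ?_
    · simp [u, mul_assoc, γ_sq]
    · have : ({a | f a = j} : Finset α).Nonempty := by simpa [filter_nonempty_iff] using hi
      simp [u, PP, involute_vS, smul_smul, ← mul_assoc, vS_sq this]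
    · simp [u, PP]
  · rintro (a | j | _) - (b | l | _) - hij <;> refine LinearMap.ext fun x => ?_
    · simp [u, mul_assoc, γ_anti (show b ≠ a by rintro rfl; exact hij rfl)]
    · simp [u, PP, involute_γ, mul_assoc]
    · simp [u, PP, involute_γ]
    · simp [u, PP, involute_γ, mul_assoc]
    · have : Disjoint ({a | f a = j} : Finset α) ({a | f a = l} : Finset α) :=
        disjoint_filter.2 fun a _ h1 h2 => hij (by rw [← h1, ← h2])
      simp [u, PP, involute_vS, ← mul_assoc, vS_anti this]
    · simp [u, PP, involute_vS]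
    · simp [u, PP, involute_γ]
    · simp [u, PP, involute_vS]
    · exact (hij rfl).elim
  · rintro (a | j | _) hi h <;> refine LinearMap.ext fun x => ?_
    · simp [u, reg_apply, mul_assoc]
    · simp [u, PP, reg_apply, involute_el, ← mul_assoc, el_mul_vS (hf h)]
    · rcases hε with rfl | ⟨-, hε⟩
      · simp at hi
      · simp [u, PP, reg_apply, involute_el, sg, show Perm.sign (proj α (φ h)) = 1 from hε h]

end Cfsg.Agent.Spin
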