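import Cfsg.Agent.Spin.Bos

/-!
# Schur's `Q`-functions as words in the vertex operators
-/

namespace Cfsg.Agent.Spin

open Finset Function Cfsg.Agent.SymCh

theorem Φ_Φ (a b : ℤ) (F : Fm) :
    Φ a (Φ b F) = (if a + b = 0 then (2 * (-1) ^ a : ℂ) • F else 0) - Φ b (Φ a F) := by
  funext ρ
  rw [Pi.sub_apply, eq_sub_iff_add_eq, Φ_anti]
  split_ifs <;> simp

theorem Φ_Φ_of_ne {a b : ℤ} (h : a + b ≠ 0) (F : Fm) : Φ a (Φ b F) = -Φ b (Φ a F) := by
  rw [Φ_Φ, if_neg h, zero_sub]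

theorem Φ_Φ_self {a : ℤ} (h : a ≠ 0) (F : Fm) : Φ a (Φ a F) = 0 := by
  have := Φ_Φ_of_ne (a := a) (b := a) (by omega) F
  funext ρ
  have := congrFun this ρ
  rw [Pi.neg_apply] at this
  rw [Pi.zero_apply]
  linear_combination this / 2

/-- The vacuum. -/
noncomputable def vac : Fm := fun ρ => if ρ = 0 then 1 else 0

theorem J_vac (r : ℕ) : J r vac = 0 := by
  funext ρ
  simp [J_apply, vac]

theorem S_vac (k : ℤ) : S k vac = if k = 0 then vac else 0 := by
  split_ifs with h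
  · rw [h, S_zero]
  rcases lt_or_ge k 0 with hk | hk
  · exact S_neg hk _
  lift k to ℕ using hk
  funext τ
  rw [S_nat]
  refine (avg_congr fun σ _ hσ => ?_).trans (avg_zero' k)
  rw [vac, if_neg, mul_zero]
  intro h1
  rw [(add_eq_zero.1 h1).1] at hσ
  exact h (by simpa using hσ.symm)

/-- Multiplication by `q_m`. -/
noncomputable def q (m : ℤ) : Fm →ₗ[ℂ] Fm where
  toFun F := V fun i => if (i : ℤ) = m then F else 0
  map_add' F G := by
    funext ρ
    simp only [V, Pi.add_apply, ← ad_add]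
    exact ad_congr fun σ τ _ => by split_ifs <;> simp [mul_add]
  map_smul' c F := by
    funext ρ
    simp only [V, Pi.smul_apply, smul_eq_mul, RingHom.id_apply, mul_ad]
    exact ad_congr fun σ τ _ => by split_ifs <;> simp [mul_left_comm]

theorem q_apply (m : ℤ) (F : Fm) : q m F = V fun i => if (i : ℤ) = m then F else 0 := rfl

theorem q_neg {m : ℤ} (hm : m < 0) (F : Fm) : q m F = 0 := by
  rw [q_apply]
  exact (congrArg V (funext fun i => if_neg (by omega))).trans V_eq_zero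

theorem J_q (r : ℕ) (m : ℤ) (F : Fm) : J r (q m F) = q m (J r F) + wo 1 r • q (m - r) F := by
  simp only [q_apply, J_V, Nat.cast_add, eq_sub_iff_add_eq, apply_ite (J r), map_zero]

theorem q_zero (F : Fm) : q 0 F = F := by
  funext ρ
  induction ρ using Multiset.induction_on generalizing F with
  | empty => simp [q_apply, V_zero]
  | cons r ρ ih =>
    rw [← J_apply r (q _ _), J_q, Pi.add_apply, ih, J_apply, add_eq_left, wo]
    split_ifs with h
    · rw [q_neg (by have := h.pos; omega)]; simp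
    · simp

theorem Φ_vac (a : ℤ) : Φ a vac = q a vac := by
  simp only [Φ_apply, q_apply, S_vac, sub_eq_zero]

theorem S_q (k : ℕ) (m : ℤ) (F : Fm) :
    S k (q m F) = ∑ x ∈ antidiagonal k, avg x.1 (wO (-2)) • q (m - x.1) (S x.2 F) := by
  funext τ
  rw [q_apply, S_V, Finset.sum_apply]
  refine sum_congr rfl fun x _ => ?_
  simp only [q_apply, Nat.cast_add, eq_sub_iff_add_eq, apply_ite (S _), map_zero, Pi.smul_apply,
    smul_eq_mul]

/-- Homogeneity. -/
def Hom (d : ℤ) (F : Fm) : Prop := ∀ ρ, (ρ.sum : ℤ) ≠ d → F ρ = 0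

theorem Hom.S {d : ℤ} {F : Fm} (h : Hom d F) (k : ℤ) : Hom (d - k) (S k F) := by
  intro τ hτ
  rcases lt_or_ge k 0 with hk | hk
  · rw [S_neg hk]; rfl
  lift k to ℕ using hk
  rw [S_nat]
  refine (avg_congr fun σ _ hσ => ?_).trans (avg_zero' k)
  rw [h _ (by rw [Multiset.sum_add, hσ]; omega), mul_zero]

theorem Hom.Φ {d : ℤ} {F : Fm} (h : Hom d F) (a : ℤ) : Hom (a + d) (Φ a F) := fun ρ hρ => by
  rw [Φ_apply, V]
  refine ad_eq_zero fun σ τ e => ?_
  rw [h.S _ τ (by rw [← e, Multiset.sum_add] at hρ; omega), mul_zero]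

theorem Hom.eq_zero {d : ℤ} {F : Fm} (h : Hom d F) (hd : d < 0) : F = 0 :=
  funext fun ρ => h ρ (by omega)

theorem Hom.Φ_eq {d : ℤ} {F : Fm} (h : Hom d F) (a : ℤ) :
    Spin.Φ a F = ∑ m ∈ range (a + d + 1).toNat, q m (Spin.S (m - a) F) := by
  funext ρ
  simp only [Φ_apply, q_apply, V, Finset.sum_apply, ← ad_sum, ← mul_sum, Nat.cast_inj]
  refine ad_congr fun σ τ _ => congrArg _ ?_
  simp only [apply_ite (fun G : Fm => G τ), Pi.zero_apply, sum_ite_eq]
  split_ifs with h1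
  · rfl
  · rw [(h.S _).eq_zero (by rw [mem_range] at h1; omega)]; rfl

/-- Words in the vertex operators. -/
noncomputable def Q (l : List ℤ) : Fm := l.foldr (fun a F => Φ a F) vac

theorem Q_nil : Q [] = vac := rfl

theorem Q_cons (a : ℤ) (l : List ℤ) : Q (a :: l) = Φ a (Q l) := rfl

theorem hom_Q (l : List ℤ) : Hom l.sum (Q l) := by
  induction l with
  | nil => exact fun ρ h => if_neg (by rintro rfl; simp at h)
  | cons a l ih => rw [List.sum_cons]; exact ih.Φ a

theorem Q_move {a : ℤ} (u v : List ℤ) (h : ∀ b ∈ u, a + b ≠ 0) :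
    Q (u ++ a :: v) = (-1 : ℂ) ^ u.length • Q (a :: (u ++ v)) := by
  induction u with
  | nil => simp
  | cons b u ih =>
    rw [List.cons_append, Q_cons, ih fun c hc => h c (List.mem_cons_of_mem _ hc), map_smul, Q_cons,
      List.cons_append, Q_cons, Q_cons, Φ_Φ_of_ne (h b List.mem_cons_self), List.length_cons,
      pow_succ, mul_smul, neg_one_smul, smul_neg, smul_neg, neg_neg]

theorem Q_neg {a : ℤ} (ha : a < 0) (l : List ℤ) (h : ∀ b ∈ l, a + b ≠ 0) : Q (a :: l) = 0 := by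
  induction l with
  | nil => rw [Q_cons, Q_nil, Φ_vac, q_neg ha]
  | cons b l ih =>
    rw [Q_cons, Q_cons, Φ_Φ_of_ne (h b List.mem_cons_self), ← Q_cons a,
      ih fun c hc => h c (List.mem_cons_of_mem _ hc), map_zero, neg_zero]

theorem Q_zero {l : List ℤ} (h : ∀ b ∈ l, 0 < b) : Q (0 :: l) = (-1 : ℂ) ^ l.length • Q l := by
  have h1 := Q_move (a := 0) l [] fun b hb => by have := h b hb; omega
  have h2 : Q (l ++ [0]) = Q l := by
    rw [Q, List.foldr_append]
    exact congrArg (fun F => l.foldr (fun a F => Φ a F) F) ((Φ_vac 0).trans (q_zero _))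
  rw [List.append_nil, h2] at h1
  rw [h1, smul_smul, ← mul_pow]
  simp

theorem Q_of_mem {a : ℤ} {l : List ℤ} (h : ∀ b ∈ l, 0 < b) (ha : a ∈ l) : Q (a :: l) = 0 := by
  obtain ⟨u, v, rfl⟩ := List.append_of_mem ha
  have h1 := h a ha
  rw [Q_cons, Q_move u v fun b hb => by have := h b (by simp [hb]); omega, map_smul, Q_cons,
    Φ_Φ_self h1.ne', smul_zero]

theorem Q_of_not_nodup {l : List ℤ} (h : ∀ b ∈ l, 0 < b) (hl : ¬ l.Nodup) : Q l = 0 := by
  induction l with
  | nil => simp at hl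
  | cons a l ih =>
    have h1 : ∀ b ∈ l, 0 < b := fun b hb => h b (List.mem_cons_of_mem _ hb)
    by_cases ha : a ∈ l
    · exact Q_of_mem h1 ha
    · rw [Q_cons, ih h1 fun h2 => hl (List.nodup_cons.2 ⟨ha, h2⟩), map_zero]

theorem Q_neg_cons {a : ℤ} (ha : 0 < a) {l : List ℤ} (h : ∀ b ∈ l, a ≠ b) :
    Q (-a :: a :: l) = (2 * (-1) ^ a : ℂ) • Q l := by
  rw [Q_cons, Q_cons, Φ_Φ, if_pos (by omega), ← Q_cons (-a),
    Q_neg (by omega) l fun b hb => by have := h b hb; omega, map_zero, sub_zero, zpow_neg,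
    ← inv_zpow, inv_neg_one]

/-- Morris's recursion. -/
theorem J_Q (r : ℕ) (l : List ℤ) :
    J r (Q l) = wo 1 r • ∑ i : Fin l.length, Q (l.set i (l[i] - r)) := by
  induction l with
  | nil => simp [Q_nil, J_vac]
  | cons a l ih =>
    rw [Q_cons, J_Φ, ih, map_smul, map_sum, ← smul_add, add_comm]
    congr 1
    simp only [List.length_cons, Fin.sum_univ_succ]
    rfl

/-- The inner product. -/
noncomputable def B (n : ℕ) (F G : Fm) : ℂ := avg n fun ρ => wO 2 ρ * F ρ * G ρ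

theorem B_comm (n : ℕ) (F G : Fm) : B n F G = B n G F := by
  simp only [B, mul_right_comm]

theorem B_smul (n : ℕ) (F G : Fm) (c : ℂ) : B n F (c • G) = c * B n F G := by
  simp only [B, mul_avg, Pi.smul_apply, smul_eq_mul, mul_left_comm c]

theorem B_zero (n : ℕ) (F : Fm) : B n F 0 = 0 := by simp [B, avg_zero']

theorem B_V (n : ℕ) (f : ℕ → Fm) (G : Fm) :
    B n (V f) G = ∑ x ∈ antidiagonal n, (-1) ^ x.1 * B x.2 (f x.1) (S x.1 G) := by
  rw [B, avg_congr (G := fun ρ => ad ρ fun σ τ => wO 2 σ * wO 2 τ * f σ.sum τ * G (σ + τ))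
    fun ρ _ _ => by
      rw [V, mul_right_comm, mul_ad]
      refine ad_congr fun σ τ h => ?_
      have := wO_mul 2 1 σ
      rw [mul_one] at this
      rw [← h, wO_add]
      linear_combination wO 2 τ * G (σ + τ) * f σ.sum τ * this, avg_ad]
  refine sum_congr rfl fun x _ => ?_
  rw [avg_comm]
  simp only [B, S_nat, mul_avg]
  refine avg_congr fun τ _ _ => avg_congr fun σ _ hσ => ?_
  have := wO_neg (-2) σ
  rw [neg_neg, hσ] at this
  rw [this, hσ]; ring

theorem sum_antidiagonal_shift (m a : ℕ) : ∀ h : ℕ → ℕ → ℂ, (∀ i < a, ∀ j, h i j = 0) →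
    ∑ x ∈ antidiagonal (m + a), h x.1 x.2 = ∑ x ∈ antidiagonal m, h (x.1 + a) x.2 := by
  induction a with
  | zero => exact fun _ _ => rfl
  | succ a ih =>
    intro h H
    rw [← add_assoc, Finset.Nat.sum_antidiagonal_succ, H 0 (by omega), zero_add,
      ih (fun i j => h (i + 1) j) fun i hi j => H _ (by omega) j]
    rfl

theorem B_Φ (m a : ℕ) (F G : Fm) : B (m + a) (Φ a F) G = (-1) ^ a * B m F (Φ (-a) G) := by
  rw [B_comm m, Φ_apply, Φ_apply, B_V, B_V, mul_sum, sum_antidiagonal_shift m a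
    (fun i j => (-1) ^ i * B j (S (i - a) F) (S i G)) fun i hi j => by
      rw [S_neg (by omega), B_comm, B_zero, mul_zero]]
  refine sum_congr rfl fun x _ => ?_
  rw [B_comm, Nat.cast_add, add_sub_cancel_right, sub_neg_eq_add]
  ring

theorem B_Q_Q (l : List ℤ) : ∀ n : ℕ, l.sum = n → (∀ b ∈ l, 0 < b) → l.Nodup →
    B n (Q l) (Q l) = 2 ^ l.length := by
  induction l with
  | nil =>
    intro n hn _ _
    obtain rfl : n = 0 := by simpa using hn.symm
    simp [B, avg_zero, Q_nil, vac]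
  | cons a l ih =>
    intro n hn h hl
    have h1 : ∀ b ∈ l, 0 < b := fun b hb => h b (List.mem_cons_of_mem _ hb)
    have h2 := h a List.mem_cons_self
    lift a to ℕ using h2.le
    obtain ⟨m, hm⟩ := Int.eq_ofNat_of_zero_le (List.sum_nonneg fun b hb => (h1 b hb).le)
    obtain rfl : n = m + a := by rw [List.sum_cons] at hn; omega
    rw [List.nodup_cons] at hl
    rw [Q_cons, B_Φ, ← Q_cons, ← Q_cons, Q_neg_cons h2 fun b hb e => hl.1 (e ▸ hb), B_smul,
      ih m hm h1 hl.2, zpow_natCast, List.length_cons, ← mul_assoc, mul_left_comm, ← mul_pow]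
    simp [pow_succ']

theorem V_eq_of (τ : Multiset ℕ) : ∀ f : ℕ → Fm, (∀ σ τ', σ + τ' = τ → σ ≠ 0 → f σ.sum τ' = 0) →
    V f τ = f 0 τ := by
  induction τ using Multiset.induction_on with
  | empty => exact fun f _ => V_zero f
  | cons r τ ih =>
    intro f h
    rw [← J_apply r (V _), J_V, Pi.add_apply, ih _ fun σ τ' e hσ =>
      h σ (r ::ₘ τ') (by rw [Multiset.add_cons, e]) hσ, J_apply, add_eq_left, Pi.smul_apply, V,
      ad_eq_zero, smul_zero]
    intro σ τ' e
    have := h (r ::ₘ σ) τ' (by rw [Multiset.cons_add, e]) Multiset.cons_ne_zero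
    rw [Multiset.sum_cons, add_comm] at this
    rw [this, mul_zero]

/-- Completeness. -/
theorem eq_zero_of_B (n : ℕ) : ∀ F : Fm, (∀ l : List ℤ, l.sum = n → (∀ b ∈ l, 0 < b) → l.Nodup →
    B n (Q l) F = 0) → ∀ ρ : Multiset ℕ, (∀ r ∈ ρ, Odd r) → ρ.sum = n → F ρ = 0 := by
  induction n using Nat.strong_induction_on with
  | _ n ih =>
  intro F h ρ hρ hn
  induction ρ using Multiset.induction_on with
  | empty =>
    subst hn
    simpa [B, avg_zero, Q_nil, vac] using h [] (by simp) (by simp) (by simp)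
  | cons r ρ _ =>
  have h1 : ∀ a : ℕ, 0 < a → ∀ τ : Multiset ℕ, (∀ r ∈ τ, Odd r) → τ.sum + a = n →
      Φ (-a) F τ = 0 := by
    intro a ha τ hτ e
    refine ih τ.sum (by omega) _ (fun l hl h1 h2 => ?_) τ hτ rfl
    have h3 := B_Φ τ.sum a (Q l) F
    rw [e, ← Q_cons] at h3
    have h4 : ∀ b ∈ (a : ℤ) :: l, 0 < b := List.forall_mem_cons.2 ⟨by omega, h1⟩
    by_cases h5 : ((a : ℤ) :: l).Nodup
    · rw [h _ (by rw [List.sum_cons]; omega) h4 h5] at h3
      simpa using h3
    · rw [Q_of_not_nodup h4 h5, B_comm, B_zero] at h3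
      simpa using h3
  have h2 : ∀ m, ∀ τ : Multiset ℕ, τ.sum = m → ∀ a : ℕ, 0 < a → (∀ r ∈ τ, Odd r) →
      τ.sum + a = n → S a F τ = 0 := by
    intro m
    induction m using Nat.strong_induction_on with
    | _ m ih' =>
    intro τ hm a ha hτ e
    have h3 := h1 a ha τ hτ e
    rw [Φ_apply, V_eq_of, Nat.cast_zero, zero_sub, neg_neg] at h3
    · exact h3
    intro σ τ' e' hσ
    have h4 : 0 < σ.sum := by
      obtain ⟨s, hs⟩ := Multiset.exists_mem_of_ne_zero hσ
      exact (hτ s (e' ▸ Multiset.mem_add.2 (Or.inl hs))).pos.trans_le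
        (Multiset.single_le_sum (fun _ _ => Nat.zero_le _) s hs)
    rw [← e', Multiset.sum_add] at hm e
    rw [sub_neg_eq_add, ← Nat.cast_add]
    exact ih' _ (by omega) τ' rfl _ (by omega) (fun s hs => hτ s (e' ▸ Multiset.mem_add.2
      (Or.inr hs))) (by omega)
  have hr := hρ r (Multiset.mem_cons_self _ _)
  have hρ' : ∀ s ∈ ρ, Odd s := fun s hs => hρ s (Multiset.mem_cons_of_mem hs)
  rw [Multiset.sum_cons] at hn
  have h3 := avg_rec r fun σ => wO (-2) σ * F (σ + ρ)
  rw [← S_nat, h2 _ ρ rfl r hr.pos hρ' (by omega), mul_zero, sum_eq_single r] at h3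
  · simpa [avg_zero, wO_cons, wo, hr] using h3
  · intro s hs hsr
    have hs' := mem_Icc.1 hs
    simp only [wO_cons, mul_assoc, ← mul_avg, Multiset.cons_add, ← Multiset.add_cons, wo]
    split_ifs with h4
    · rw [← S_nat, h2 _ _ rfl _ (by omega) (Multiset.forall_mem_cons.2 ⟨h4, hρ'⟩)
        (by rw [Multiset.sum_cons]; omega), mul_zero]
    · rw [zero_mul]
  · exact fun h4 => (h4 (mem_Icc.2 ⟨hr.pos, le_rfl⟩)).elim

end Cfsg.Agent.Spin
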